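import Mathlib
import Cfsg.Agent.Lib.ClassSizes.CMN1
import Cfsg.Agent.Lib.PGroup.ItoBasic
import Cfsg.Agent.Lib.Core.Factor
import Cfsg.Agent.Lib.Core.Subnormal
import Cfsg.Agent.Lib.Cl.TwoSizes

/-! Class sizes `1, n, m, nm` with `n, m` coprime: elementary tools. -/

set_option autoImplicit false
set_option linter.style.haveILetI false

namespace Cfsg.Agent.Lib.FourSizes

open Subgroup Cfsg.Agent.Lib.PGroup.Ito Cfsg.Agent.Lib.ClassSizes.CMN Cfsg.Agent.Lib.Core

variable {G : Type*} [Group G] [Finite G]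

/-- The size of the class of `x`. -/
noncomputable abbrev cs (x : G) : ℕ := (C x).index

theorem cs_dvd_of_le {x y : G} (h : C x ≤ C y) : cs y ∣ cs x := Subgroup.index_dvd_of_le h

theorem cs_eq_one_iff {x : G} : cs x = 1 ↔ x ∈ center G := by
  rw [index_eq_one, C_eq_top_iff]

theorem cs_conj (g x : G) : cs (g * x * g⁻¹) = cs x := index_C_conj x g

theorem comm_of_center {x : G} (hx : x ∈ center G) (y : G) : y * x = x * y :=
  (mem_center_iff.1 hx y)

/-- Sizes `1, n, m, nm`. -/
structure Sz (G : Type*) [Group G] [Finite G] (n m : ℕ) : Prop where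
  hn : 1 < n
  hm : 1 < m
  hcop : n.Coprime m
  h : ∀ x : G, cs x = 1 ∨ cs x = n ∨ cs x = m ∨ cs x = n * m
  exn : ∃ x : G, cs x = n
  exm : ∃ x : G, cs x = m
  exnm : ∃ x : G, cs x = n * m

variable {n m : ℕ}

theorem Sz.symm (S : Sz G n m) : Sz G m n where
  hn := S.hm
  hm := S.hn
  hcop := S.hcop.symm
  h := fun x => by
    rcases S.h x with e | e | e | e
    · exact Or.inl e
    · exact Or.inr (Or.inr (Or.inl e))
    · exact Or.inr (Or.inl e)
    · exact Or.inr (Or.inr (Or.inr (by rw [e, mul_comm])))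
  exn := S.exm
  exm := S.exn
  exnm := by
    obtain ⟨x, hx⟩ := S.exnm
    exact ⟨x, by rw [hx, mul_comm]⟩

theorem Sz.not_m_dvd_n (S : Sz G n m) : ¬ m ∣ n := fun h => by
  have := Nat.Coprime.eq_one_of_dvd S.hcop.symm h
  have := S.hm
  omega

theorem Sz.not_n_dvd_m (S : Sz G n m) : ¬ n ∣ m := S.symm.not_m_dvd_n

theorem Sz.of_dvd_n (S : Sz G n m) {x : G} (h : cs x ∣ n) : cs x = 1 ∨ cs x = n := by
  rcases S.h x with e | e | e | e
  · exact Or.inl e
  · exact Or.inr e
  · exact absurd (e ▸ h) S.not_m_dvd_n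
  · rw [e] at h
    exact absurd ((Dvd.intro_left n rfl).trans h) S.not_m_dvd_n

theorem Sz.of_n_dvd (S : Sz G n m) {x : G} (h : n ∣ cs x) : cs x = n ∨ cs x = n * m := by
  rcases S.h x with e | e | e | e
  · rw [e] at h
    have := Nat.le_of_dvd one_pos h
    have := S.hn
    omega
  · exact Or.inl e
  · exact absurd (e ▸ h) S.not_n_dvd_m
  · exact Or.inr e

theorem Sz.of_mul_dvd (S : Sz G n m) {x : G} (h : n * m ∣ cs x) : cs x = n * m := by
  rcases S.of_n_dvd ((Dvd.intro m rfl).trans h) with e | e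
  · rw [e] at h
    exact absurd ((Dvd.intro_left n rfl).trans h) S.not_m_dvd_n
  · exact e

theorem C_mul_eq {x y : G} (hc : x * y = y * x) (hco : (orderOf x).Coprime (orderOf y)) :
    C (x * y) = C x ⊓ C y :=
  Cfsg.Agent.Lib.Cl.TwoSizes.centralizer_mul_of_coprime hc hco

/-- The element with the largest class centralizes what commutes with it. -/
theorem Sz.C_le_of_big (S : Sz G n m) {w t : G} (hw : cs w = n * m) (hc : w * t = t * w)
    (hco : (orderOf w).Coprime (orderOf t)) : C w ≤ C t := by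
  have h1 := C_mul_eq hc hco
  have h2 : C (w * t) ≤ C w := by rw [h1]; exact inf_le_left
  have h3 : cs (w * t) = n * m := S.of_mul_dvd (by rw [← hw]; exact cs_dvd_of_le h2)
  have h4 : C (w * t) = C w := eq_of_le_of_index_eq h2 (h3.trans hw.symm)
  rw [← h4, h1]
  exact inf_le_right

theorem exists_mul_C {x y : G} (h : (cs x).Coprime (cs y)) (g : G) :
    ∃ u ∈ C x, ∃ v ∈ C y, g = u * v :=
  exists_mul_of_coprime_index _ _ h g

/-- Commuting elements with coprime classes: one commutes with all conjugates of the other. -/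
theorem comm_conj_of_coprime {x y : G} (h : (cs x).Coprime (cs y)) (hc : x * y = y * x) (g : G) :
    x * (g * y * g⁻¹) = (g * y * g⁻¹) * x := by
  obtain ⟨u, hu, v, hv, rfl⟩ := exists_mul_C h g
  have hu' : u * x = x * u := mem_C.1 hu
  have hv' : v * y = y * v := mem_C.1 hv
  have e : u * v * y * (u * v)⁻¹ = u * y * u⁻¹ := by
    calc u * v * y * (u * v)⁻¹ = u * (v * y) * v⁻¹ * u⁻¹ := by group
      _ = u * (y * v) * v⁻¹ * u⁻¹ := by rw [hv']
      _ = _ := by group
  rw [e]
  have c1 : Commute x u := hu'.symm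
  have c2 : Commute x y := hc
  exact (c1.mul_right c2).mul_right c1.inv_right

theorem center_of_forall_not_dvd {s : ℕ} (hs : s.Prime) (h : ∀ g : G, ¬ s ∣ cs g) {t : G}
    (ht : PE s t) : t ∈ center G := by
  haveI : Fact s.Prime := ⟨hs⟩
  obtain ⟨P⟩ : Nonempty (Sylow s G) := inferInstance
  have hX : centralizer ((P : Subgroup G) : Set G) = ⊤ := by
    apply eq_top_of_forall_conj_mem
    intro x
    obtain ⟨P', hP'⟩ := Cfsg.Agent.Lib.PSolv.exists_sylow_le_of_not_dvd_index (h x)
    obtain ⟨g, hg⟩ := MulAction.exists_smul_eq G P' P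
    refine ⟨g, ?_⟩
    rw [mem_centralizer_iff]
    intro y hy
    rw [← hg, Sylow.smul_def, Sylow.pointwise_smul_def] at hy
    obtain ⟨y', hy', rfl⟩ := hy
    have h3 : y' * x = x * y' := mem_C.1 (hP' hy')
    show MulAut.conj g • y' * (g * x * g⁻¹) = g * x * g⁻¹ * MulAut.conj g • y'
    simp only [MulAut.smul_def, MulAut.conj_apply]
    calc g * y' * g⁻¹ * (g * x * g⁻¹) = g * (y' * x) * g⁻¹ := by group
      _ = g * (x * y') * g⁻¹ := by rw [h3]
      _ = _ := by group
  have hPc : ∀ y ∈ (P : Subgroup G), y ∈ center G := by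
    intro y hy
    rw [mem_center_iff]
    intro z
    have hz : z ∈ centralizer ((P : Subgroup G) : Set G) := by rw [hX]; trivial
    exact (mem_centralizer_iff.1 hz y hy).symm
  obtain ⟨g, hg⟩ := exists_conj_mem (X := (P : Subgroup G)) hs ht P.not_dvd_index
  by_contra hn
  exact conj_not_mem_center hn g (hPc _ hg)

theorem card_dvd_of_index_dvd {H L : Subgroup G} (h : H.index ∣ L.index) : Nat.card L ∣ Nat.card H := by
  obtain ⟨e, he⟩ := h
  have h1 := H.index_mul_card
  have h2 := L.index_mul_card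
  rw [← h2, he, mul_assoc] at h1
  have h0 : H.index ≠ 0 := index_ne_zero_of_finite
  exact ⟨e, by rw [Nat.eq_of_mul_eq_mul_left (Nat.pos_of_ne_zero h0) h1]; ring⟩

/-- If all `s`-elements of `H` are central and `L` has `s`-part at most that of `H`, then all
`s`-elements of `L` are central. -/
theorem tight {s : ℕ} (hs : s.Prime) {H L : Subgroup G} (hHL : H.index ∣ L.index)
    (hcen : center G ≤ L) (hH : ∀ t ∈ H, PE s t → t ∈ center G) {w : G} (hw : w ∈ L)
    (hwe : PE s w) : w ∈ center G := by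
  haveI : Fact s.Prime := ⟨hs⟩
  obtain ⟨S, hS⟩ := exists_sylIn (p := s) H
  have hSc : S ≤ center G := fun t ht => hH t (hS.1 ht) (PE.of_mem_isPGroup hS.2.1 ht)
  obtain ⟨S', hS', hSS'⟩ := exists_sylIn_ge (p := s) hS.2.1 (hSc.trans hcen)
  have hle : (Nat.card L).factorization s ≤ (Nat.card H).factorization s :=
    (Nat.factorization_le_iff_dvd Nat.card_pos.ne' Nat.card_pos.ne').2 (card_dvd_of_index_dvd hHL) s
  have hcard : Nat.card S' ≤ Nat.card S := by
    rw [hS.card, hS'.card]
    exact Nat.pow_le_pow_right hs.pos hle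
  have heq : S = S' := Subgroup.eq_of_le_of_card_ge hSS' hcard
  subst heq
  have hm : w ∈ S := by
    apply hS'.mem_of_comm hw (hwe.orderOf_eq hs)
    intro x hx
    exact (comm_of_center (hSc hx) w).symm
  exact hSc hm

end Cfsg.Agent.Lib.FourSizes
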