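import Mathlib
import Cfsg.Agent.Lib.FourSizes.Basic
import Cfsg.Agent.Lib.ClassSizes.Basic
import Cfsg.Agent.Lib.Coprime.FrobCount
import Cfsg.Agent.Lib.Transfer.Comp
import Cfsg.Agent.S4134

/-! A normal `q`-complement from class sizes prime to `q`, by counting. -/

set_option autoImplicit false
set_option linter.style.haveILetI false

namespace Cfsg.Agent.Lib.FourSizes

open Subgroup Cfsg.Agent.Lib.PGroup.Ito Cfsg.Agent.Lib.ClassSizes.CMN Cfsg.Agent.Lib.Core

theorem card_le_of_conj_cover {X : Type*} [Group X] [Finite X] (D H : Subgroup X)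
    (hH : ∀ h ∈ H, ∀ d ∈ D, h * d * h⁻¹ ∈ D) (U : Set X)
    (hU : ∀ u ∈ U, ∃ g, g * u * g⁻¹ ∈ D) : Nat.card U ≤ H.index * (Nat.card D - 1) + 1 := by
  classical
  have : Fintype X := Fintype.ofFinite X
  let φ : (X ⧸ H) × ↥D → X := fun p => (p.1.out) * (p.2 : X) * (p.1.out)⁻¹
  let A : Finset ((X ⧸ H) × ↥D) :=
    (Finset.univ : Finset ((X ⧸ H) × ↥D)).filter (fun p => (p.2 : X) ≠ 1)
  have hsub : ∀ u ∈ U, u ∈ insert 1 (A.image φ) := by
    intro x hxU
    by_cases hx : x = 1
    · simp [hx]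
    · obtain ⟨g, hg⟩ := hU x hxU
      let c : X ⧸ H := QuotientGroup.mk g⁻¹
      have hc : c.out⁻¹ * g⁻¹ ∈ H := by
        have h0 : (QuotientGroup.mk c.out : X ⧸ H) = QuotientGroup.mk g⁻¹ := by
          rw [QuotientGroup.out_eq']
        exact QuotientGroup.eq.mp h0
      have hd := hH _ hc _ hg
      refine Finset.mem_insert_of_mem (Finset.mem_image.mpr ⟨(c, ⟨_, hd⟩), ?_, ?_⟩)
      · rw [Finset.mem_filter]
        refine ⟨Finset.mem_univ _, ?_⟩
        intro h1
        apply hx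
        have h2 : c.out⁻¹ * g⁻¹ * (g * x * g⁻¹) * (c.out⁻¹ * g⁻¹)⁻¹ = 1 := h1
        have h4 : (c.out⁻¹ * g⁻¹) * (g * x * g⁻¹) * (c.out⁻¹ * g⁻¹)⁻¹ = c.out⁻¹ * x * c.out := by group
        rw [h4] at h2
        calc x = c.out * (c.out⁻¹ * x * c.out) * c.out⁻¹ := by group
          _ = 1 := by rw [h2]; group
      · show c.out * ((c.out⁻¹ * g⁻¹) * (g * x * g⁻¹) * (c.out⁻¹ * g⁻¹)⁻¹) * c.out⁻¹ = x
        group
  have h1 : Nat.card U ≤ (insert 1 (A.image φ)).card := by
    have h0 := Nat.card_le_card_of_injective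
      (fun u : U => (⟨u.1, hsub u.1 u.2⟩ : ↥(insert 1 (A.image φ) : Finset X)))
      (fun a b h => Subtype.ext (congrArg (fun z : ↥(insert 1 (A.image φ) : Finset X) => (z : X)) h))
    rwa [Nat.card_eq_fintype_card (α := ↥(insert 1 (A.image φ) : Finset X)), Fintype.card_coe] at h0
  have h2 : (insert 1 (A.image φ)).card ≤ (A.image φ).card + 1 := Finset.card_insert_le _ _
  have h3 : (A.image φ).card ≤ A.card := Finset.card_image_le
  have h4 : A.card = H.index * (Nat.card D - 1) := by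
    have h5 : A = (Finset.univ : Finset (X ⧸ H)) ×ˢ
        ((Finset.univ : Finset ↥D).filter (fun p : ↥D => (p : X) ≠ 1)) := by
      ext p
      simp [A]
    rw [h5, Finset.card_product]
    have e1 : (Finset.univ : Finset (X ⧸ H)).card = H.index := by
      rw [Finset.card_univ, ← Nat.card_eq_fintype_card]
      rfl
    have e2 : ((Finset.univ : Finset ↥D).filter (fun p : ↥D => (p : X) ≠ 1)).card = Nat.card D - 1 := by
      have h6 : ((Finset.univ : Finset ↥D).filter (fun p : ↥D => (p : X) ≠ 1)) =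
          (Finset.univ : Finset ↥D).erase 1 := by
        ext p
        simp only [Finset.mem_filter, Finset.mem_univ, true_and, Finset.mem_erase, and_true, ne_eq,
          OneMemClass.coe_eq_one]
      rw [h6, Finset.card_erase_of_mem (Finset.mem_univ _), Finset.card_univ, Nat.card_eq_fintype_card]
    rw [e1, e2]
  omega

theorem orderOf_conj' {X : Type*} [Group X] (g x : X) : orderOf (g * x * g⁻¹) = orderOf x := by
  have := orderOf_injective (MulAut.conj g).toMonoidHom (MulAut.conj g).injective x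
  simpa using this

theorem mem_of_isPGroup_quotient {X : Type*} [Group X] [Finite X] {q : ℕ} {N : Subgroup X} [N.Normal]
    (h : IsPGroup q (X ⧸ N)) (hq : q.Prime) {x : X} (hx : (orderOf x).Coprime q) : x ∈ N := by
  obtain ⟨k, hk⟩ := h (QuotientGroup.mk x)
  have h1 : x ^ q ^ k ∈ N := by
    rw [← QuotientGroup.eq_one_iff, QuotientGroup.mk_pow, hk]
  exact Cfsg.Agent.Lib.ClassSizes.mem_of_pow_mem_of_coprime N x (q ^ k)
    (Nat.Coprime.pow_left _ hx.symm) h1

theorem lemmaQ {X : Type*} [Group X] [Finite X] {q : ℕ} (hq : q.Prime)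
    (h : ∀ t : X, (orderOf t).Coprime q → ¬ q ∣ cs t) :
    ∃ D : Subgroup X, D.Normal ∧ (∀ t : X, (orderOf t).Coprime q → t ∈ D) ∧
      (∀ t ∈ D, (orderOf t).Coprime q) ∧ ∀ y : X, PE q y → ∀ t ∈ D, y * t = t * y := by
  classical
  haveI : Fact q.Prime := ⟨hq⟩
  obtain ⟨Q⟩ : Nonempty (Sylow q X) := inferInstance
  let C0 : Subgroup X := centralizer ((Q : Subgroup X) : Set X)
  obtain ⟨P₀⟩ : Nonempty (Sylow q C0) := inferInstance
  have hQsyl : SylIn q (Q : Subgroup X) ⊤ :=
    ⟨le_top, Q.2, by rw [relIndex_top_right]; exact Q.not_dvd_index⟩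
  have hP₀Q : ∀ y : C0, y ∈ (P₀ : Subgroup C0) → (y : X) ∈ (Q : Subgroup X) := by
    intro y hy
    have h1 : PE q y := PE.of_mem_isPGroup P₀.2 hy
    have h2 : PE q (y : X) := h1.coe
    apply hQsyl.mem_of_comm (mem_top _) (h2.orderOf_eq hq)
    intro x hx
    exact (mem_centralizer_iff.1 y.2 x hx)
  have hcen : normalizer ((P₀ : Subgroup C0) : Set C0) ≤ centralizer ((P₀ : Subgroup C0) : Set C0) := by
    intro z _
    rw [mem_centralizer_iff]
    intro y hy
    apply Subtype.ext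
    exact (mem_centralizer_iff.1 z.2 _ (hP₀Q y hy))
  let K0 : Subgroup C0 := (MonoidHom.transferSylow P₀ hcen).ker
  have hc0 : K0.IsComplement' (P₀ : Subgroup C0) := MonoidHom.ker_transferSylow_isComplement' P₀ hcen
  haveI hK0n : K0.Normal := inferInstance
  have hK0cop : (Nat.card K0).Coprime q := Cfsg.Agent.Lib.Transfer.complement_card_coprime hc0
  have hK0q : IsPGroup q (C0 ⧸ K0) := Cfsg.Agent.Lib.Transfer.complement_quotient_isPGroup hc0
  let D : Subgroup X := K0.map C0.subtype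
  have hDC : D ≤ C0 := map_subtype_le _
  have hDcard : Nat.card D = Nat.card K0 := Nat.card_congr (Subgroup.equivMapOfInjective K0 _ C0.subtype_injective).toEquiv.symm
  have hDcop : (Nat.card D).Coprime q := hDcard ▸ hK0cop
  have hDall : ∀ t ∈ C0, (orderOf t).Coprime q → t ∈ D := by
    intro t ht hco
    have h1 : (⟨t, ht⟩ : C0) ∈ K0 := by
      apply mem_of_isPGroup_quotient hK0q hq
      rw [Subgroup.orderOf_mk]
      exact hco
    exact ⟨_, h1, rfl⟩
  have hconj : ∀ t : X, (orderOf t).Coprime q → ∃ g, g * t * g⁻¹ ∈ D := by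
    intro t hco
    obtain ⟨P', hP'⟩ := Cfsg.Agent.Lib.PSolv.exists_sylow_le_of_not_dvd_index (h t hco)
    obtain ⟨g, hg⟩ := MulAction.exists_smul_eq X P' Q
    refine ⟨g, hDall _ ?_ (by rw [orderOf_conj']; exact hco)⟩
    rw [mem_centralizer_iff]
    intro y hy
    have hy' : y ∈ ((g • P' : Sylow q X) : Subgroup X) := by rw [hg]; exact hy
    rw [Sylow.smul_def, Sylow.pointwise_smul_def] at hy'
    obtain ⟨y', hy'', rfl⟩ := hy'
    have h3 : y' * t = t * y' := mem_C.1 (hP' hy'')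
    show MulAut.conj g • y' * (g * t * g⁻¹) = g * t * g⁻¹ * MulAut.conj g • y'
    simp only [MulAut.smul_def, MulAut.conj_apply]
    calc g * y' * g⁻¹ * (g * t * g⁻¹) = g * (y' * t) * g⁻¹ := by group
      _ = g * (t * y') * g⁻¹ := by rw [h3]
      _ = _ := by group
  -- the normalizer of `D` has index one
  let N : Subgroup X := normalizer (D : Set X)
  have hDN : D ≤ N := le_normalizer
  have hcomm : ∀ y ∈ (Q : Subgroup X), ∀ t ∈ D, y * t = t * y := fun y hy t ht =>
    (mem_centralizer_iff.1 (hDC ht) y hy)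
  have hQN : (Q : Subgroup X) ≤ N := by
    intro y hy
    rw [mem_normalizer_iff]
    intro t
    constructor
    · intro ht
      have h1 : y * t * y⁻¹ = t := by rw [hcomm y hy t ht]; group
      show y * t * y⁻¹ ∈ D
      rw [h1]
      exact ht
    · intro ht
      have h1 : y⁻¹ * (y * t * y⁻¹) = (y * t * y⁻¹) * y⁻¹ := hcomm _ (Q.1.inv_mem hy) _ ht
      have h2 : t = (y * t * y⁻¹) := by
        calc t = y⁻¹ * (y * t * y⁻¹) * y := by group
          _ = (y * t * y⁻¹) * y⁻¹ * y := by rw [h1]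
          _ = _ := by group
      show t ∈ D
      rw [h2]
      exact ht
  have hqI : ¬ q ∣ (Q : Subgroup X).index := Q.not_dvd_index
  have hQcard : (Nat.card D).Coprime (Nat.card (Q : Subgroup X)) := by
    obtain ⟨k, hk⟩ := IsPGroup.iff_card.mp Q.isPGroup'
    rw [hk]
    exact Nat.Coprime.pow_right k hDcop
  have hdvd : Nat.card D * Nat.card (Q : Subgroup X) ∣ Nat.card N :=
    hQcard.mul_dvd_of_dvd_of_dvd (Subgroup.card_dvd_of_le hDN) (Subgroup.card_dvd_of_le hQN)
  obtain ⟨f, hf⟩ := hdvd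
  have hN1 := N.index_mul_card
  have hQ1 := (Q : Subgroup X).index_mul_card
  have hQpos : 0 < Nat.card (Q : Subgroup X) := Nat.card_pos
  have hI : (Q : Subgroup X).index = N.index * (Nat.card D * f) := by
    apply Nat.eq_of_mul_eq_mul_right hQpos
    rw [hQ1, ← hN1, hf]
    ring
  have hIpos : 0 < (Q : Subgroup X).index := Nat.pos_of_ne_zero index_ne_zero_of_finite
  have hf0 : 0 < f := by
    rcases Nat.eq_zero_or_pos f with h0 | h0
    · rw [h0] at hI
      simp at hI
      omega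
    · exact h0
  have hle1 : N.index * Nat.card D ≤ (Q : Subgroup X).index := by
    rw [hI]
    exact Nat.mul_le_mul_left _ (Nat.le_mul_of_pos_right _ hf0)
  let U : Set X := {x : X | x ^ (Q : Subgroup X).index = 1}
  have hfrob : (Q : Subgroup X).index ∣ Nat.card U :=
    Cfsg.Agent.Lib.Coprime.frobenius_count _ (Dvd.intro _ hQ1)
  have hUpos : 0 < Nat.card U := by
    haveI : Nonempty U := ⟨⟨1, by simp [U]⟩⟩
    exact Nat.card_pos
  have hle2 := Nat.le_of_dvd hUpos hfrob
  have hUc : ∀ u ∈ U, ∃ g, g * u * g⁻¹ ∈ D := by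
    intro u hu
    apply hconj
    have h1 : orderOf u ∣ (Q : Subgroup X).index := orderOf_dvd_of_pow_eq_one hu
    exact Nat.Coprime.coprime_dvd_left h1 ((Nat.Prime.coprime_iff_not_dvd hq).2 hqI).symm
  have hle3 := card_le_of_conj_cover D N (fun h hh d hd => (mem_normalizer_iff.1 hh d).1 hd) U hUc
  have hDpos : 0 < Nat.card D := Nat.card_pos
  have he : N.index = 1 := by
    have he0 : N.index ≠ 0 := index_ne_zero_of_finite
    obtain ⟨d, hd⟩ : ∃ d, Nat.card D = d + 1 := ⟨Nat.card D - 1, by omega⟩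
    rw [hd] at hle1 hle3
    simp only [Nat.add_sub_cancel] at hle3
    have h5 : N.index * (d + 1) = N.index * d + N.index := by ring
    omega
  have hNtop : N = ⊤ := index_eq_one.1 he
  have hDn : D.Normal := normalizer_eq_top_iff.1 hNtop
  refine ⟨D, hDn, ?_, ?_, ?_⟩
  · intro t ht
    obtain ⟨g, hg⟩ := hconj t ht
    have h1 := hDn.conj_mem _ hg g⁻¹
    have h2 : g⁻¹ * (g * t * g⁻¹) * g⁻¹⁻¹ = t := by group
    rwa [h2] at h1
  · intro t ht
    have h1 : orderOf t ∣ Nat.card D := by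
      have := Subgroup.orderOf_dvd_natCard D ht
      exact this
    exact Nat.Coprime.coprime_dvd_left h1 hDcop
  · intro y hy t ht
    obtain ⟨g, hg⟩ := exists_conj_mem (X := (Q : Subgroup X)) hq hy Q.not_dvd_index
    have h1 := hcomm _ hg _ (hDn.conj_mem t ht g)
    calc y * t = g⁻¹ * ((g * y * g⁻¹) * (g * t * g⁻¹)) * g := by group
      _ = g⁻¹ * ((g * t * g⁻¹) * (g * y * g⁻¹)) * g := by rw [h1]
      _ = t * y := by group

theorem cc_of_two_sizes {Y : Type*} [Group Y] [Finite Y] {n : ℕ} (hn : 1 < n)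
    (h : ∀ x : Y, cs x = 1 ∨ cs x = n) {r s : ℕ} (hr : r.Prime) (hs : s.Prime) (hrs : r ≠ s)
    {u v : Y} (hu : PE r u) (hv : PE s v) : u * v = v * u := by
  by_cases hex : ∃ x : Y, cs x = n
  · obtain ⟨p, hp, a, hna, hst⟩ := Cfsg.Agent.S4134.result n hn h hex
    obtain ⟨P⟩ : Nonempty (Sylow p Y) := inferInstance
    obtain ⟨hPn, ⟨N, hNn, hc, hNab, hcomm⟩, -⟩ := hst P
    haveI := hNn
    have hmemN : ∀ {w : Y} {l : ℕ}, l.Prime → l ≠ p → PE l w → w ∈ N := fun hl hlp hw =>
      mem_of_isPGroup_quotient (Cfsg.Agent.Lib.Transfer.complement_quotient_isPGroup hc) hp.out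
        (hw.coprime hl hp.out hlp)
    have hmemP : ∀ {w : Y}, PE p w → w ∈ (P : Subgroup Y) := by
      intro w hw
      obtain ⟨g, hg⟩ := exists_conj_mem (X := (P : Subgroup Y)) hp.out hw P.not_dvd_index
      have h1 := hPn.conj_mem _ hg g⁻¹
      have h2 : g⁻¹ * (g * w * g⁻¹) * g⁻¹⁻¹ = w := by group
      rwa [h2] at h1
    by_cases hrp : r = p
    · subst hrp
      exact (hcomm v (hmemN hs hrs.symm hv) u (hmemP hu)).symm
    by_cases hsp : s = p
    · subst hsp
      exact hcomm u (hmemN hr hrs hu) v (hmemP hv)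
    · exact congrArg Subtype.val
        (hNab.is_comm.comm (⟨u, hmemN hr hrp hu⟩ : N) (⟨v, hmemN hs hsp hv⟩ : N))
  · push Not at hex
    have h1 : cs u = 1 := (h u).resolve_right (hex u)
    exact (comm_of_center (cs_eq_one_iff.1 h1) v).symm

variable {G : Type*} [Group G] [Finite G] {n m : ℕ}

theorem Sz.relIndex_sizes (S : Sz G n m) {t y : G} (hcy : cs y = m) (hc : t * y = y * t)
    (hco : (orderOf t).Coprime (orderOf y)) :
    (C t).relIndex (C y) = 1 ∨ (C t).relIndex (C y) = n := by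
  have h1 := C_mul_eq hc hco
  have h2 : cs (t * y) = (C t).relIndex (C y) * m := by
    show (C (t * y)).index = _
    rw [h1, ← hcy, ← Subgroup.inf_relIndex_right, Subgroup.relIndex_mul_index inf_le_right]
  have hm : 0 < m := by have := S.hm; omega
  rcases S.symm.of_n_dvd (x := t * y) (by rw [h2]; exact Dvd.intro_left _ rfl) with e | e
  · left
    rw [h2] at e
    exact Nat.eq_of_mul_eq_mul_right hm (by rw [e, one_mul])
  · right
    rw [h2] at e
    exact Nat.eq_of_mul_eq_mul_right hm (by rw [e, mul_comm])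

theorem pack (S : Sz G n m) {q : ℕ} (hq : q.Prime) {y : G} (hy : PE q y) (hcy : cs y = m)
    (hqn : ¬ q ∣ n) :
    (∀ r s, r.Prime → s.Prime → r ≠ s → ∀ u ∈ C y, ∀ v ∈ C y, PE r u → PE s v → u * v = v * u) ∧
    (∀ t ∈ C y, (orderOf t).Coprime q → (C t).relIndex (C y) = n → IsPrimePow n) := by
  have hcE : ∀ τ : ↥(C y), cs τ = (C (τ : G)).relIndex (C y) := by
    intro τ
    have h0 : C τ = (C (τ : G)).subgroupOf (C y) := by
      ext z
      rw [mem_subgroupOf, mem_C, mem_C]
      exact ⟨fun h => congrArg Subtype.val h, fun h => Subtype.ext h⟩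
    show (C τ).index = _
    rw [h0]
    rfl
  have hsz : ∀ t ∈ C y, (orderOf t).Coprime q → (C t).relIndex (C y) = 1 ∨ (C t).relIndex (C y) = n := by
    intro t ht hco
    obtain ⟨j, hj⟩ := hy.orderOf_eq hq
    have hco' : (orderOf t).Coprime (orderOf y) := by
      rw [hj]
      exact Nat.Coprime.pow_right _ hco
    exact S.relIndex_sizes hcy (mem_C.1 ht) hco'
  obtain ⟨D, hDn, hDall, hDcop, hDq⟩ := lemmaQ (X := ↥(C y)) hq (by
    intro τ hτ
    rw [hcE]
    have h1 := hsz τ τ.2 (by rwa [← Subgroup.orderOf_coe] at hτ)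
    rcases h1 with e | e
    · rw [e]
      exact hq.one_lt.ne' ∘ Nat.dvd_one.1
    · rw [e]
      exact hqn)
  have hcD : ∀ δ : D, cs δ = cs (δ : ↥(C y)) := by
    intro δ
    have hCD : C δ = (C (δ : ↥(C y))).subgroupOf D := by
      ext z
      rw [mem_subgroupOf, mem_C, mem_C]
      exact ⟨fun h => congrArg Subtype.val h, fun h => Subtype.ext h⟩
    show (C δ).index = (C (δ : ↥(C y))).index
    rw [hCD]
    show (C (δ : ↥(C y))).relIndex D = (C (δ : ↥(C y))).index
    rw [← relIndex_sup_of_normal]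
    have h1 : C (δ : ↥(C y)) ⊔ D = ⊤ := by
      rw [eq_top_iff]
      intro τ _
      obtain ⟨a, b, rfl, hab, ha, hb, -, -⟩ := parts hq τ
      refine mul_mem_sup (mem_C.2 ?_) (hDall b hb)
      exact hDq a ha δ δ.2
    rw [h1, relIndex_top_right]
  have hD2 : ∀ δ : D, cs δ = 1 ∨ cs δ = n := by
    intro δ
    rw [hcD, hcE]
    apply hsz _ δ.1.2
    have h1 := hDcop δ δ.2
    rwa [← Subgroup.orderOf_coe] at h1
  have hn := S.hn
  constructor
  · intro r s hr hs hrs u hu v hv hur hvs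
    have hU : PE r (⟨u, hu⟩ : ↥(C y)) := PE.of_subgroup hur
    have hV : PE s (⟨v, hv⟩ : ↥(C y)) := PE.of_subgroup hvs
    by_cases hrq : r = q
    · subst hrq
      have h1 := hDq _ hU _ (hDall _ (hV.coprime hs hr hrs.symm))
      exact congrArg Subtype.val h1
    by_cases hsq : s = q
    · subst hsq
      have h1 := hDq _ hV _ (hDall _ (hU.coprime hr hs hrs))
      exact (congrArg Subtype.val h1).symm
    have hU' : PE r (⟨_, hDall _ (hU.coprime hr hq hrq)⟩ : D) := PE.of_subgroup hU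
    have hV' : PE s (⟨_, hDall _ (hV.coprime hs hq hsq)⟩ : D) := PE.of_subgroup hV
    have h1 := cc_of_two_sizes hn hD2 hr hs hrs hU' hV'
    exact congrArg (fun z : D => ((z : ↥(C y)) : G)) h1
  · intro t ht hco hrel
    have hco' : (orderOf (⟨t, ht⟩ : ↥(C y))).Coprime q := by
      rwa [Subgroup.orderOf_mk]
    let δ : D := ⟨⟨t, ht⟩, hDall _ hco'⟩
    have h1 : cs δ = n := by
      rw [hcD, hcE]
      exact hrel
    obtain ⟨p, hp, a, hna, -⟩ := Cfsg.Agent.S4134.result n hn hD2 ⟨δ, h1⟩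
    refine ⟨p, a, hp.out.prime, Nat.pos_of_ne_zero ?_, hna.symm⟩
    rintro rfl
    simp at hna
    omega

end Cfsg.Agent.Lib.FourSizes
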