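import Mathlib
import Cfsg.Agent.Lib.FourSizes.Q
import Cfsg.Agent.Lib.Hall.Elementary

/-! A fixed point free action with commutative image. -/

set_option autoImplicit false
set_option linter.style.haveILetI false

namespace Cfsg.Agent.Lib.FourSizes

open Subgroup Cfsg.Agent.Lib.PGroup.Ito Cfsg.Agent.Lib.ClassSizes.CMN Cfsg.Agent.Lib.Core

theorem comm_of_fpf_action {V W : Type*} [Group V] [Finite V] [CommGroup W] (f : V →* MulAut W)
    (hcomm : ∀ x y, f x * f y = f y * f x) (hfpf : ∀ x, f x ≠ 1 → ∀ w, f x w = w → w = 1)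
    (hker : ∀ x, f x = 1 → x ∈ center V)
    (htors : ∀ p : ℕ, p.Prime → p ∣ Nat.card V → ∀ w : W, w ^ p = 1 → w = 1) (a b : V) :
    a * b = b * a := by
  classical
  haveI hfin : Finite f.range := Finite.of_surjective f.rangeRestrict f.rangeRestrict_surjective
  haveI hcm : IsMulCommutative f.range := ⟨⟨by
    rintro ⟨_, x, rfl⟩ ⟨_, y, rfl⟩
    exact Subtype.ext (hcomm x y)⟩⟩
  by_cases hcyc : IsCyclic f.range
  · refine commutative_of_cyclic_center_quotient f.rangeRestrict ?_ a b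
    intro x hx
    apply hker
    have h1 : f.rangeRestrict x = 1 := hx
    exact congrArg Subtype.val h1
  obtain ⟨p, hp, E, hE, hEp⟩ := Cfsg.Agent.Lib.Hall.exists_elementary_of_not_isCyclic hcyc
  haveI : Fact p.Prime := ⟨hp⟩
  have hp2 := hp.two_le
  have hpd : p ∣ Nat.card V := by
    have h1 : p ∣ Nat.card E := by rw [hE]; exact dvd_pow_self p two_ne_zero
    have h2 : Nat.card E ∣ Nat.card f.range := Subgroup.card_subgroup_dvd_card E
    have h3 : Nat.card f.range ∣ Nat.card V :=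
      Subgroup.card_dvd_of_surjective f.rangeRestrict f.rangeRestrict_surjective
    exact h1.trans (h2.trans h3)
  obtain ⟨ρ, hρE, hρ1⟩ : ∃ ρ ∈ E, ρ ≠ 1 := by
    apply (E.bot_or_exists_ne_one).resolve_left
    rintro rfl
    rw [Subgroup.card_bot] at hE
    nlinarith
  have hordρ : orderOf ρ = p := orderOf_eq_prime (hEp ρ hρE) hρ1
  obtain ⟨σ, hσE, hσz⟩ : ∃ σ ∈ E, σ ∉ zpowers ρ := by
    by_contra hno
    push Not at hno
    have h1 : Nat.card E ≤ Nat.card (zpowers ρ) := Subgroup.card_le_of_le hno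
    rw [hE, Nat.card_zpowers, hordρ] at h1
    nlinarith
  have hσ1 : σ ≠ 1 := fun h => hσz (h ▸ one_mem _)
  have hordσ : orderOf σ = p := orderOf_eq_prime (hEp σ hσE) hσ1
  have hind : ∀ i j, i < p → j < p → (i ≠ 0 ∨ j ≠ 0) → ρ ^ i * σ ^ j ≠ 1 := by
    intro i j hi hj hor h1
    by_cases hj0 : j = 0
    · subst hj0
      have hi0 : i ≠ 0 := hor.resolve_right (by simp)
      rw [pow_zero, mul_one] at h1
      have h2 : p ∣ i := by rw [← hordρ]; exact orderOf_dvd_of_pow_eq_one h1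
      exact hi0 (Nat.eq_zero_of_dvd_of_lt h2 hi)
    · apply hσz
      have h2 : σ ^ j = (ρ ^ i)⁻¹ := eq_inv_of_mul_eq_one_right h1
      have h3 : σ ^ j ∈ zpowers ρ := by
        rw [h2]
        exact inv_mem (pow_mem (mem_zpowers ρ) i)
      refine Cfsg.Agent.Lib.ClassSizes.mem_of_pow_mem_of_coprime _ σ j ?_ h3
      rw [hordσ]
      exact ((Nat.Prime.coprime_iff_not_dvd hp).2
        (Nat.not_dvd_of_pos_of_lt (Nat.pos_of_ne_zero hj0) hj)).symm
  let θ : MulAut W →* Monoid.End W :=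
    { toFun := fun φ => φ.toMonoidHom
      map_one' := rfl
      map_mul' := fun _ _ => rfl }
  have hθ : ∀ (τ : f.range) (w : W), θ (τ : MulAut W) w = (τ : MulAut W) w := fun _ _ => rfl
  have hcomm' : Commute ρ σ := by
    show ρ * σ = σ * ρ
    exact hcm.is_comm.comm ρ σ
  have hc : Commute (θ (ρ : MulAut W)) (θ (σ : MulAut W)) := by
    show θ (ρ : MulAut W) * θ (σ : MulAut W) = θ (σ : MulAut W) * θ (ρ : MulAut W)
    rw [← map_mul, ← map_mul, ← Subgroup.coe_mul, ← Subgroup.coe_mul, hcomm'.eq]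
  have hρp : (θ (ρ : MulAut W)) ^ p = 1 := by
    rw [← map_pow, ← Subgroup.coe_pow, hEp ρ hρE]
    simp
  have hσp : (θ (σ : MulAut W)) ^ p = 1 := by
    rw [← map_pow, ← Subgroup.coe_pow, hEp σ hσE]
    simp
  have hf : ∀ i j : ℕ, i < p → j < p → (i ≠ 0 ∨ j ≠ 0) →
      ∀ w, ((θ (ρ : MulAut W)) ^ i * (θ (σ : MulAut W)) ^ j) w = w → w = 1 := by
    intro i j hi hj hor w hw
    have h1 := hind i j hi hj hor
    have h2 : (θ (ρ : MulAut W)) ^ i * (θ (σ : MulAut W)) ^ j = θ ((ρ ^ i * σ ^ j : f.range) : MulAut W) := by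
      rw [Subgroup.coe_mul, Subgroup.coe_pow, Subgroup.coe_pow, map_mul, map_pow, map_pow]
    rw [h2, hθ] at hw
    obtain ⟨x, hx⟩ := (ρ ^ i * σ ^ j : f.range).2
    rw [← hx] at hw
    refine hfpf x ?_ w hw
    rw [hx]
    intro h3
    exact h1 (Subtype.ext h3)
  have h2 := two_free hp _ _ hc hρp hσp hf
  have hall : ∀ w : W, w = 1 := fun w => htors p hp hpd w (h2 w)
  exfalso
  apply hρ1
  apply Subtype.ext
  apply MulEquiv.ext
  intro w
  rw [hall ((ρ : MulAut W) w), hall w]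
  simp

end Cfsg.Agent.Lib.FourSizes
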