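import Mathlib
import Cfsg.Agent.Lib.FourSizes.Basic
import Cfsg.Agent.Lib.ClassSizes.Basic

/-! The subgroup attached to two non-commuting elements with coprime classes, when the product
has the larger of the two class sizes. -/

set_option autoImplicit false
set_option linter.style.haveILetI false

namespace Cfsg.Agent.Lib.FourSizes

open Subgroup Cfsg.Agent.Lib.PGroup.Ito Cfsg.Agent.Lib.ClassSizes.CMN Cfsg.Agent.Lib.Core

variable {G : Type*} [Group G] [Finite G] {n m : ℕ}

theorem card_dvd_of_stable (K : Subgroup G) (A : Set G) (h : ∀ x ∈ A, ∀ k ∈ K, x * k ∈ A) :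
    Nat.card K ∣ Nat.card A := by
  classical
  let A' : Set (G ⧸ K) := (QuotientGroup.mk : G → G ⧸ K) '' A
  have hout : ∀ c : A', (c : G ⧸ K).out ∈ A := by
    rintro ⟨c, x, hx, rfl⟩
    have h1 : (QuotientGroup.mk x : G ⧸ K).out⁻¹ * x ∈ K := by
      apply QuotientGroup.eq.1
      exact QuotientGroup.out_eq' _
    have h2 : (QuotientGroup.mk x : G ⧸ K).out = x * ((QuotientGroup.mk x : G ⧸ K).out⁻¹ * x)⁻¹ := by
      group
    show (QuotientGroup.mk x : G ⧸ K).out ∈ A
    rw [h2]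
    exact h x hx _ (K.inv_mem h1)
  let f : A' × K → A := fun p => ⟨(p.1 : G ⧸ K).out * p.2, h _ (hout p.1) _ p.2.2⟩
  have hb : Function.Bijective f := by
    constructor
    · rintro ⟨⟨c, hc⟩, k⟩ ⟨⟨c', hc'⟩, k'⟩ heq
      have h1 : c.out * (k : G) = c'.out * (k' : G) := congrArg Subtype.val heq
      have h2 : c = c' := by
        have e1 : (QuotientGroup.mk (c.out * (k : G)) : G ⧸ K) = c := by
          rw [QuotientGroup.mk_mul_of_mem _ k.2]
          exact QuotientGroup.out_eq' c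
        have e2 : (QuotientGroup.mk (c'.out * (k' : G)) : G ⧸ K) = c' := by
          rw [QuotientGroup.mk_mul_of_mem _ k'.2]
          exact QuotientGroup.out_eq' c'
        rw [← e1, ← e2, h1]
      subst h2
      have h3 : k = k' := Subtype.ext (mul_left_cancel h1)
      subst h3
      rfl
    · rintro ⟨x, hx⟩
      have h1 : (QuotientGroup.mk x : G ⧸ K).out⁻¹ * x ∈ K := by
        apply QuotientGroup.eq.1
        exact QuotientGroup.out_eq' _
      refine ⟨(⟨QuotientGroup.mk x, x, hx, rfl⟩, ⟨_, h1⟩), Subtype.ext ?_⟩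
      show (QuotientGroup.mk x : G ⧸ K).out * ((QuotientGroup.mk x : G ⧸ K).out⁻¹ * x) = x
      group
  have h3 := Nat.card_congr (Equiv.ofBijective f hb)
  rw [← h3, Nat.card_prod]
  exact Dvd.intro_left _ rfl

theorem lemmaN (S : Sz G n m) (hgt : m < n) {a t : G} (ha : cs a = n) (ht : cs t = m)
    (hne : a * t ≠ t * a) :
    ∃ K : Subgroup G, K.Normal ∧ K ≠ ⊥ ∧ (∀ g, g * t * g⁻¹ * t⁻¹ ∈ K) ∧ (∀ k ∈ K, k * t = t * k) ∧
      (∀ k ∈ K, ∀ k' ∈ K, k * k' = k' * k) ∧ Nat.card K ∣ n ∧ (∀ k ∈ K, IsConj a (a * k)) ∧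
      (∀ E : ℕ, t ^ E = 1 → ∀ k ∈ K, k ^ E = 1) := by
  classical
  have hco : (cs a).Coprime (cs t) := by rw [ha, ht]; exact S.hcop
  have hi : ∀ h : G, ∃ v, v * (a * t) * v⁻¹ = (h * a * h⁻¹) * t := by
    intro h
    obtain ⟨v, hv, u, hu, rfl⟩ := exists_mul_C hco.symm h
    refine ⟨v, ?_⟩
    have hv' : v * t = t * v := mem_C.1 hv
    have hu' : u * a = a * u := mem_C.1 hu
    have e1 : v * t * v⁻¹ = t := by rw [hv']; group
    have e2 : (v * u) * a * (v * u)⁻¹ = v * a * v⁻¹ := by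
      calc (v * u) * a * (v * u)⁻¹ = v * (u * a) * u⁻¹ * v⁻¹ := by group
        _ = v * (a * u) * u⁻¹ * v⁻¹ := by rw [hu']
        _ = _ := by group
    rw [e2]
    calc v * (a * t) * v⁻¹ = v * a * v⁻¹ * (v * t * v⁻¹) := by group
      _ = _ := by rw [e1]
  have hAB : ∀ x, IsConj a x → IsConj (a * t) (x * t) := by
    intro x hx
    obtain ⟨h, rfl⟩ := isConj_iff.1 hx
    obtain ⟨v, hv⟩ := hi h
    exact isConj_iff.2 ⟨v, hv⟩
  let A : Set G := {x : G | IsConj a x}
  let B : Set G := {x : G | IsConj (a * t) x}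
  have hcA : Nat.card A = n := by
    rw [← ha]
    exact Cfsg.Agent.Lib.Char.card_isConj_eq_index a
  have hcB : Nat.card B = cs (a * t) := Cfsg.Agent.Lib.Char.card_isConj_eq_index (a * t)
  let f : A → B := fun x => ⟨x.1 * t, hAB _ x.2⟩
  have hinj : Function.Injective f := by
    rintro ⟨x, hx⟩ ⟨y, hy⟩ h
    exact Subtype.ext (mul_right_cancel (congrArg Subtype.val h))
  have hle : n ≤ cs (a * t) := by
    rw [← hcA, ← hcB]
    exact Nat.card_le_card_of_injective f hinj
  have hcat : cs (a * t) = n := by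
    have hn := S.hn
    rcases S.h (a * t) with e | e | e | e
    · omega
    · exact e
    · omega
    · exfalso
      have h1 : C a ⊓ C t ≤ C (a * t) := by
        intro g hg
        have h2 : g * a = a * g := mem_C.1 hg.1
        have h3 : g * t = t * g := mem_C.1 hg.2
        apply mem_C.2
        rw [← mul_assoc, h2, mul_assoc, h3, mul_assoc]
      have h2 : (C a ⊓ C t).index = (C (a * t)).index := by
        rw [index_inf_of_coprime _ _ hco]
        show cs a * cs t = cs (a * t)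
        rw [ha, ht, e]
      have h3 := eq_of_le_of_index_eq h1 h2
      have h4 : a * t ∈ C a ⊓ C t := by rw [h3]; exact self_mem_C _
      have h5 : a * t * a = a * (a * t) := mem_C.1 h4.1
      apply hne
      have h6 : a * (t * a) = a * (a * t) := by rw [← mul_assoc]; exact h5
      exact (mul_left_cancel h6).symm
  have hbij : Function.Bijective f := hinj.bijective_of_nat_card_le (by rw [hcB, hcA, hcat])
  have hsurj : ∀ y, IsConj (a * t) y → ∃ x, IsConj a x ∧ y = x * t := by
    intro y hy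
    obtain ⟨⟨x, hx⟩, h⟩ := hbij.2 ⟨y, hy⟩
    exact ⟨x, hx, (congrArg Subtype.val h).symm⟩
  let St : Subgroup G :=
    { carrier := {k | ∀ x, IsConj a x → IsConj a (x * k)}
      one_mem' := fun x hx => by simpa using hx
      mul_mem' := fun {k l} hk hl x hx => by
        rw [← mul_assoc]
        exact hl _ (hk _ hx)
      inv_mem' := fun {k} hk x hx => by
        have hp : ∀ j : ℕ, IsConj a (x * k ^ j) := by
          intro j
          induction j with
          | zero => simpa using hx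
          | succ j ih =>
            rw [pow_succ, ← mul_assoc]
            exact hk _ ih
        have e : k⁻¹ = k ^ (orderOf k - 1) := by
          apply inv_eq_of_mul_eq_one_right
          rw [← pow_succ', Nat.sub_add_cancel (orderOf_pos k), pow_orderOf_eq_one]
        rw [e]
        exact hp _ }
  haveI hStn : St.Normal := ⟨fun k hk g x hx => by
    have hy : IsConj a (g⁻¹ * x * g⁻¹⁻¹) := hx.trans (isConj_iff.2 ⟨g⁻¹, rfl⟩)
    have h1 := hk _ hy
    have h2 : IsConj a (g * (g⁻¹ * x * g⁻¹⁻¹ * k) * g⁻¹) := h1.trans (isConj_iff.2 ⟨g, rfl⟩)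
    have e : g * (g⁻¹ * x * g⁻¹⁻¹ * k) * g⁻¹ = x * (g * k * g⁻¹) := by group
    rw [e] at h2
    exact h2⟩
  have hgen : ∀ g, g * t * g⁻¹ * t⁻¹ ∈ St := by
    intro g x hx
    have hy : IsConj a (g⁻¹ * x * g⁻¹⁻¹) := hx.trans (isConj_iff.2 ⟨g⁻¹, rfl⟩)
    have h1 := hAB _ hy
    have h2 : IsConj (a * t) (g * (g⁻¹ * x * g⁻¹⁻¹ * t) * g⁻¹) := h1.trans (isConj_iff.2 ⟨g, rfl⟩)
    obtain ⟨x', hx', e⟩ := hsurj _ h2
    have e1 : x * (g * t * g⁻¹) = x' * t := by
      rw [← e]
      group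
    have e2 : x * (g * t * g⁻¹ * t⁻¹) = x' := by
      calc x * (g * t * g⁻¹ * t⁻¹) = x * (g * t * g⁻¹) * t⁻¹ := by group
        _ = x' * t * t⁻¹ := by rw [e1]
        _ = x' := by group
    rw [e2]
    exact hx'
  let K : Subgroup G := normalClosure (Set.range fun g : G => g * t * g⁻¹ * t⁻¹)
  haveI hKn : K.Normal := normalClosure_normal
  have hKSt : K ≤ St := normalClosure_le_normal (by rintro _ ⟨g, rfl⟩; exact hgen g)
  have hK1 : ∀ g, g * t * g⁻¹ * t⁻¹ ∈ K := fun g => subset_normalClosure ⟨g, rfl⟩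
  have hKcard : Nat.card K ∣ n := by
    have h1 := card_dvd_of_stable K A (fun x hx k hk => hKSt hk x hx)
    rwa [hcA] at h1
  have hKt : K ≤ C t := by
    have h1 : (C t).relIndex K ∣ m := by
      rw [← ht]
      exact relIndex_dvd_index_of_normal_right (C t) K
    have h2 : (C t).relIndex K ∣ Nat.card K := relIndex_dvd_card _ _
    have h3 := Nat.eq_one_of_dvd_coprimes S.hcop (h2.trans hKcard) h1
    exact relIndex_eq_one.1 h3
  have hab : ∀ k ∈ K, ∀ k' ∈ K, k * k' = k' * k := by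
    let K₀ : Subgroup G := normalClosure ({t} : Set G)
    haveI hK₀n : K₀.Normal := normalClosure_normal
    have h1 : K₀ ≤ centralizer (K : Set G) := by
      apply normalClosure_le_normal
      rintro _ rfl
      rw [SetLike.mem_coe, mem_centralizer_iff]
      intro k hk
      exact mem_C.1 (hKt hk)
    have htK₀ : t ∈ K₀ := subset_normalClosure rfl
    have h2 : K ≤ K₀ := by
      apply normalClosure_le_normal
      rintro _ ⟨g, rfl⟩
      exact K₀.mul_mem (hK₀n.conj_mem t htK₀ g) (K₀.inv_mem htK₀)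
    intro k hk k' hk'
    exact (mem_centralizer_iff.1 (h1 (h2 hk')) k hk)
  refine ⟨K, hKn, ?_, hK1, fun k hk => mem_C.1 (hKt hk), hab, hKcard,
    fun k hk => hKSt hk a (IsConj.refl a), ?_⟩
  · intro h0
    have h1 := hK1 a
    rw [h0, mem_bot] at h1
    apply hne
    have h2 : a * t * a⁻¹ = t := by
      calc a * t * a⁻¹ = (a * t * a⁻¹ * t⁻¹) * t := by group
        _ = t := by rw [h1, one_mul]
    calc a * t = (a * t * a⁻¹) * a := by group
      _ = t * a := by rw [h2]
  · intro E hE k hk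
    have hbase : ∀ g, (g * t * g⁻¹ * t⁻¹) ^ E = 1 := by
      intro g
      have h1 : (g * t * g⁻¹ * t⁻¹) * t = t * (g * t * g⁻¹ * t⁻¹) := mem_C.1 (hKt (hK1 g))
      have h2 : Commute (g * t * g⁻¹) t := by
        show g * t * g⁻¹ * t = t * (g * t * g⁻¹)
        calc g * t * g⁻¹ * t = (g * t * g⁻¹ * t⁻¹ * t) * t := by group
          _ = (t * (g * t * g⁻¹ * t⁻¹)) * t := by rw [h1]
          _ = t * (g * t * g⁻¹) := by group
      rw [h2.inv_right.mul_pow, conj_pow, hE, inv_pow, hE]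
      simp
    have hKeq : K = closure (Group.conjugatesOfSet (Set.range fun g : G => g * t * g⁻¹ * t⁻¹)) := rfl
    have hk' : k ∈ closure (Group.conjugatesOfSet (Set.range fun g : G => g * t * g⁻¹ * t⁻¹)) := hk
    refine closure_induction (p := fun x _ => x ^ E = 1) ?_ (by simp) ?_ ?_ hk'
    · intro x hx
      obtain ⟨y, ⟨g, rfl⟩, hc⟩ := Group.mem_conjugatesOfSet_iff.1 hx
      obtain ⟨c, rfl⟩ := isConj_iff.1 hc
      rw [conj_pow]
      simp only []
      rw [hbase]
      simp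
    · intro x y hx hy hx' hy'
      have hc : Commute x y := hab x (hKeq ▸ hx) y (hKeq ▸ hy)
      rw [hc.mul_pow, hx', hy', one_mul]
    · intro x hx hx'
      rw [inv_pow, hx', inv_one]

theorem fix_eq_one {q N : ℕ} (hq : q.Prime) {a k : G} (hqn : ¬ q ∣ N) (hk : k ^ N = 1)
    (hpe : PE q a) (hc : a * k = k * a) (hconj : IsConj a (a * k)) : k = 1 := by
  obtain ⟨j, hj⟩ := hpe
  obtain ⟨c, hc'⟩ := isConj_iff.1 hconj
  have h1 : (a * k) ^ (q ^ j) = 1 := by
    rw [← hc', conj_pow, hj]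
    simp
  have hcc : Commute a k := hc
  rw [hcc.mul_pow, hj, one_mul] at h1
  have hcop : (q ^ j).Coprime N := Nat.Coprime.pow_left _ ((Nat.Prime.coprime_iff_not_dvd hq).2 hqn)
  have h2 := Nat.dvd_gcd (orderOf_dvd_of_pow_eq_one h1) (orderOf_dvd_of_pow_eq_one hk)
  rw [hcop] at h2
  exact orderOf_eq_one_iff.1 (Nat.eq_one_of_dvd_one h2)

end Cfsg.Agent.Lib.FourSizes
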