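import Mathlib
import Cfsg.Agent.Lib.FourSizes.LemN
import Cfsg.Agent.Lib.FourSizes.Q
import Cfsg.Agent.Lib.FourSizes.Fpf

/-! The configuration in which elements of class `n` have order prime to `n` and likewise for `m`
does not occur. -/

set_option autoImplicit false
set_option linter.style.haveILetI false

namespace Cfsg.Agent.Lib.FourSizes

open Subgroup Cfsg.Agent.Lib.PGroup.Ito Cfsg.Agent.Lib.ClassSizes.CMN Cfsg.Agent.Lib.Core

variable {G : Type*} [Group G] [Finite G] {n m : ℕ}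

theorem Sz.dvd_of_noncentral (S : Sz G n m) {q : ℕ} (hq : q.Prime) {a : G} (ha : PE q a)
    (hnc : a ∉ center G) : q ∣ n ∨ q ∣ m := by
  by_contra hno
  push Not at hno
  refine hnc (center_of_forall_not_dvd hq (fun g hd => ?_) ha)
  rcases S.h g with e | e | e | e <;> rw [e] at hd
  · exact hq.one_lt.ne' (Nat.dvd_one.1 hd)
  · exact hno.1 hd
  · exact hno.2 hd
  · rcases (Nat.Prime.dvd_mul hq).1 hd with h | h
    · exact hno.1 h
    · exact hno.2 h

theorem comm_of_PE_not_dvd {q : ℕ} (hq : q.Prime) {y a : G} (hy : PE q y) (hd : ¬ q ∣ cs a)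
    (hco : (cs y).Coprime (cs a)) : y * a = a * y := by
  obtain ⟨g, hg⟩ := exists_conj_mem (X := C a) hq hy hd
  have h1 : (g * y * g⁻¹) * a = a * (g * y * g⁻¹) := mem_C.1 hg
  have h2 := comm_conj_of_coprime (x := a) (y := g * y * g⁻¹) (by rw [cs_conj]; exact hco.symm)
    h1.symm g⁻¹
  have e : g⁻¹ * (g * y * g⁻¹) * g⁻¹⁻¹ = y := by group
  rw [e] at h2
  exact h2.symm

theorem conj_into_sylIn {q : ℕ} (hq : q.Prime) {S K : Subgroup G} (hS : @SylIn G _ q S K) {a : G}
    (haK : a ∈ K) (hPE : PE q a) : ∃ k ∈ K, k * a * k⁻¹ ∈ S := by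
  haveI : Fact q.Prime := ⟨hq⟩
  have hW : zpowers a ≤ K := zpowers_le.2 haK
  obtain ⟨S', hS', hWS'⟩ := exists_sylIn_ge (hPE.isPGroup_zpowers hq) hW
  obtain ⟨k, hk, h⟩ := sylIn_conj hS' hS
  exact ⟨k, hk, (h a).1 (hWS' (mem_zpowers a))⟩

theorem exists_conj_in_relIndex {K H : Subgroup G} {q : ℕ} (hq : q.Prime) {a : G} (haK : a ∈ K)
    (hPE : PE q a) (hd : ¬ q ∣ H.relIndex K) : ∃ k ∈ K, k * a * k⁻¹ ∈ H := by
  haveI : Fact q.Prime := ⟨hq⟩
  obtain ⟨S, hS, hSH⟩ := exists_sylIn_le_of_not_dvd hd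
  obtain ⟨k, hk, h⟩ := conj_into_sylIn hq hS haK hPE
  exact ⟨k, hk, hSH h⟩

theorem fixK {K : Subgroup G} {q : ℕ} (hq : q.Prime) {a : G} (hKcard : Nat.card K ∣ n) (hqn : ¬ q ∣ n)
    (hconj : ∀ k ∈ K, IsConj a (a * k)) (ha : PE q a) {k : G} (hk : k ∈ K) (hc : a * k = k * a) :
    k = 1 := by
  refine fix_eq_one hq (N := Nat.card K) (fun h => hqn (h.trans hKcard)) ?_ ha hc (hconj k hk)
  exact orderOf_dvd_iff_pow_eq_one.1 (Subgroup.orderOf_dvd_natCard K hk)

theorem mixed (S : Sz G n m) (hgt : m < n)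
    (hT1 : ∀ (p : ℕ) (x : G), p.Prime → PE p x → cs x = n → ¬ p ∣ n)
    {q r : ℕ} (hq : q.Prime) (hr : r.Prime) {a z : G} (ha : PE q a) (hca : cs a = n)
    (hqn : ¬ q ∣ n) (hz : PE r z) (hcz : cs z = m) (hrm : ¬ r ∣ m) (hc : a * z = z * a) : False := by
  have hm1 := S.hm
  have hn1 := S.hn
  have hzc : z ∉ center G := fun h => by
    have := cs_eq_one_iff.2 h
    omega
  have hrn : r ∣ n := (S.dvd_of_noncentral hr hz hzc).resolve_right hrm
  have hrq : r ≠ q := by
    rintro rfl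
    exact hqn hrn
  have hco : (cs a).Coprime (cs z) := by
    rw [hca, hcz]
    exact S.hcop
  haveI : Fact r.Prime := ⟨hr⟩
  have claim1 : ∀ t, PE r t → cs t = m → a * t = t * a := by
    intro t ht hct
    by_contra hne
    obtain ⟨K, hKn, hKne, hK1, hKt, hKab, hKcard, hKconj, hKpow⟩ := lemmaN S hgt hca hct hne
    obtain ⟨j, hj⟩ := ht
    have hKp : IsPGroup r K := fun k => ⟨j, Subtype.ext (by simpa using hKpow _ hj k k.2)⟩
    obtain ⟨R, hRz⟩ : ∃ R : Sylow r G, (R : Subgroup G) ≤ C z :=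
      Cfsg.Agent.Lib.PSolv.exists_sylow_le_of_not_dvd_index (by rw [show (C z).index = m from hcz]; exact hrm)
    have hKR : K ≤ (R : Subgroup G) := hKp.le_sylow_of_normal R
    haveI : Group.IsNilpotent (R : Subgroup G) := R.2.isNilpotent
    have hsubne : K.subgroupOf (R : Subgroup G) ≠ ⊥ := by
      intro h0
      apply hKne
      rw [eq_bot_iff]
      intro k hk
      have h1 : (⟨k, hKR hk⟩ : (R : Subgroup G)) ∈ K.subgroupOf (R : Subgroup G) := hk
      rw [h0, mem_bot] at h1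
      exact congrArg Subtype.val h1
    have h2 := normal_inf_center_ne_bot (K.subgroupOf (R : Subgroup G)) hsubne
    obtain ⟨τ, hτ, hτ1⟩ := (Subgroup.bot_or_exists_ne_one _).resolve_left h2
    have ht'K : (τ : G) ∈ K := hτ.1
    have ht'Z : ∀ w ∈ (R : Subgroup G), w * (τ : G) = (τ : G) * w := by
      intro w hw
      have h3 := mem_center_iff.1 hτ.2 ⟨w, hw⟩
      exact congrArg Subtype.val h3
    have ht'1 : (τ : G) ≠ 1 := fun h => hτ1 (Subtype.ext h)
    have hat' : a * (τ : G) ≠ (τ : G) * a := fun h =>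
      ht'1 (fixK hq hKcard hqn hKconj ha ht'K h)
    have hclass : ∀ w : G, (R : Subgroup G) ≤ C w → a * w ≠ w * a → cs w = m := by
      intro w hRw haw
      have hnd : ¬ r ∣ cs w := fun h => R.not_dvd_index (h.trans (Subgroup.index_dvd_of_le hRw))
      rcases S.h w with e | e | e | e
      · exact absurd (comm_of_center (cs_eq_one_iff.1 e) a) haw
      · rw [e] at hnd
        exact absurd hrn hnd
      · exact e
      · rw [e] at hnd
        exact absurd (hrn.mul_right m) hnd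
    have hRt' : (R : Subgroup G) ≤ C (τ : G) := fun w hw => mem_C.2 (ht'Z w hw)
    have hct' : cs (τ : G) = m := hclass _ hRt' hat'
    have hzt' : z * (τ : G) = (τ : G) * z := (mem_C.1 (hRz τ.2)).symm
    have hRw : (R : Subgroup G) ≤ C (z * (τ : G)) := by
      intro g hg
      have h3 : g * z = z * g := mem_C.1 (hRz hg)
      have h4 : g * (τ : G) = (τ : G) * g := ht'Z g hg
      apply mem_C.2
      rw [← mul_assoc, h3, mul_assoc, h4, mul_assoc]
    have hawn : a * (z * (τ : G)) ≠ (z * (τ : G)) * a := by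
      intro h3
      apply hat'
      have h4 : z * (a * (τ : G)) = z * ((τ : G) * a) := by
        calc z * (a * (τ : G)) = (z * a) * (τ : G) := by group
          _ = (a * z) * (τ : G) := by rw [hc]
          _ = a * (z * (τ : G)) := by group
          _ = (z * (τ : G)) * a := h3
          _ = _ := by group
      exact mul_left_cancel h4
    have hcw : cs (z * (τ : G)) = m := hclass _ hRw hawn
    obtain ⟨K', hK'n, hK'ne, hK'1, hK't, hK'ab, hK'card, hK'conj, hK'pow⟩ :=
      lemmaN S hgt hca hcw hawn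
    have hle : C (τ : G) ≤ C z := by
      intro g hg
      have hg' : g * (τ : G) = (τ : G) * g := mem_C.1 hg
      have e1 : g * (τ : G) * g⁻¹ = (τ : G) := by rw [hg']; group
      have h3 := hK'1 g
      have e2 : g * (z * (τ : G)) * g⁻¹ * (z * (τ : G))⁻¹ = g * z * g⁻¹ * z⁻¹ := by
        calc g * (z * (τ : G)) * g⁻¹ * (z * (τ : G))⁻¹
            = g * z * g⁻¹ * (g * (τ : G) * g⁻¹) * (τ : G)⁻¹ * z⁻¹ := by group
          _ = g * z * g⁻¹ * (τ : G) * (τ : G)⁻¹ * z⁻¹ := by rw [e1]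
          _ = _ := by group
      rw [e2] at h3
      have h4 : a * (g * z * g⁻¹) = (g * z * g⁻¹) * a := comm_conj_of_coprime hco hc g
      have h5 : Commute a (g * z * g⁻¹ * z⁻¹) := by
        have c1 : Commute a (g * z * g⁻¹) := h4
        have c2 : Commute a z := hc
        exact c1.mul_right c2.inv_right
      have h6 := fixK hq hK'card hqn hK'conj ha h3 h5
      apply mem_C.2
      have h7 : g * z * g⁻¹ = z := by
        calc g * z * g⁻¹ = (g * z * g⁻¹ * z⁻¹) * z := by group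
          _ = z := by rw [h6, one_mul]
      calc g * z = (g * z * g⁻¹) * g := by group
        _ = z * g := by rw [h7]
    have heq := eq_of_le_of_index_eq hle (hct'.trans hcz.symm)
    apply hat'
    have h8 : a ∈ C (τ : G) := by
      rw [heq]
      exact mem_C.2 hc
    exact mem_C.1 h8
  have haz : a ∈ C z := mem_C.2 hc
  have claim2 : ∀ e ∈ C z, ∃ k ∈ C z, (k * a * k⁻¹) * e = e * (k * a * k⁻¹) := by
    intro e he
    obtain ⟨t, v, rfl, htv, ht, hv, htz, hvz⟩ := parts hr e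
    have hle : zpowers (t * v) ≤ C z := zpowers_le.2 he
    have htC : t ∈ C z := hle htz
    have hvC : v ∈ C z := hle hvz
    obtain ⟨i, hi⟩ := hz.orderOf_eq hr
    obtain ⟨i', hi'⟩ := ht.orderOf_eq hr
    have hvcop : (orderOf v).Coprime (orderOf z) := by
      rw [hi]
      exact Nat.Coprime.pow_right _ hv
    have htvcop : (orderOf t).Coprime (orderOf v) := by
      rw [hi']
      exact Nat.Coprime.pow_left _ hv.symm
    have hvrel := S.relIndex_sizes hcz (mem_C.1 hvC) hvcop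
    have hqrel : ¬ q ∣ (C v).relIndex (C z) := by
      rcases hvrel with e | e <;> rw [e]
      · exact hq.one_lt.ne' ∘ Nat.dvd_one.1
      · exact hqn
    suffices hs : ∃ k ∈ C z, (k * a * k⁻¹) * t = t * (k * a * k⁻¹) ∧
        (k * a * k⁻¹) * v = v * (k * a * k⁻¹) by
      obtain ⟨k, hk, h1, h2⟩ := hs
      refine ⟨k, hk, ?_⟩
      have c1 : Commute (k * a * k⁻¹) t := h1
      have c2 : Commute (k * a * k⁻¹) v := h2
      exact c1.mul_right c2
    obtain ⟨k, hk, hkv⟩ := exists_conj_in_relIndex hq haz ha hqrel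
    rcases S.h t with e | e | e | e
    · exact ⟨k, hk, comm_of_center (cs_eq_one_iff.1 e) _, mem_C.1 hkv⟩
    · exact absurd hrn (hT1 r t hr ht e)
    · have hat := claim1 t ht e
      have hcoa : (cs t).Coprime (cs a) := by
        rw [e, hca]
        exact S.hcop.symm
      exact ⟨k, hk, (comm_conj_of_coprime hcoa hat.symm k).symm, mem_C.1 hkv⟩
    · -- the large class
      haveI : Fact q.Prime := ⟨hq⟩
      obtain ⟨Q₀, hQ₀⟩ := exists_sylIn (p := q) (C t)
      have hQY : Q₀ ≤ C z := by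
        intro w hw
        have hwC : w * t = t * w := mem_C.1 (hQ₀.1 hw)
        have hwPE : PE q w := PE.of_mem_isPGroup hQ₀.2.1 hw
        have h1 : C t ≤ C w := S.C_le_of_big e hwC.symm (ht.coprime_orderOf hr hq hrq hwPE)
        have h2 : z ∈ C t := comm_mem_C htC
        exact comm_mem_C (h1 h2)
      have hcard : Nat.card (C z) = n * Nat.card (C t) := by
        have h1 := (C z).index_mul_card
        have h2 := (C t).index_mul_card
        have h3 : (C z).index = m := hcz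
        have h4 : (C t).index = n * m := e
        rw [h3] at h1
        rw [h4, ← h1] at h2
        have hm0 : 0 < m := by omega
        apply Nat.eq_of_mul_eq_mul_left hm0
        rw [← h2]
        ring
      have hQsyl : SylIn q Q₀ (C z) := by
        apply sylIn_of_card hQY hQ₀.2.1
        rw [hQ₀.card, hcard, Nat.factorization_mul (by omega) Nat.card_pos.ne', Finsupp.add_apply,
          Nat.factorization_eq_zero_of_not_dvd hqn, zero_add]
      obtain ⟨k', hk', hk'Q⟩ := conj_into_sylIn hq hQsyl haz ha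
      have h1 : k' * a * k'⁻¹ ∈ C t := hQ₀.1 hk'Q
      have h2 : C t ≤ C v := S.C_le_of_big e htv htvcop
      exact ⟨k', hk', mem_C.1 h1, mem_C.1 (h2 h1)⟩
  have hJ : (C a).subgroupOf (C z) = ⊤ := by
    apply eq_top_of_forall_conj_mem
    intro e
    obtain ⟨k, hk, hke⟩ := claim2 e e.2
    refine ⟨⟨k, hk⟩⁻¹, ?_⟩
    rw [mem_subgroupOf]
    apply mem_C.2
    show k⁻¹ * (e : G) * k⁻¹⁻¹ * a = a * (k⁻¹ * (e : G) * k⁻¹⁻¹)
    calc k⁻¹ * (e : G) * k⁻¹⁻¹ * a = k⁻¹ * ((e : G) * (k * a * k⁻¹)) * k := by group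
      _ = k⁻¹ * ((k * a * k⁻¹) * (e : G)) * k := by rw [hke]
      _ = _ := by group
  have hle : C z ≤ C a := by
    intro w hw
    have h1 : (⟨w, hw⟩ : ↥(C z)) ∈ (C a).subgroupOf (C z) := by
      rw [hJ]
      trivial
    exact h1
  have h2 := cs_dvd_of_le hle
  rw [hca, hcz] at h2
  exact S.not_n_dvd_m h2

theorem tightR (S : Sz G n m) (hT1 : ∀ (p : ℕ) (x : G), p.Prime → PE p x → cs x = n → ¬ p ∣ n)
    (hNM : ∀ (q r : ℕ) (a z : G), q.Prime → r.Prime → PE q a → cs a = n → ¬ q ∣ n → PE r z →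
      cs z = m → ¬ r ∣ m → a * z ≠ z * a)
    {r : ℕ} (hr : r.Prime) {z : G} (hz : PE r z) (hcz : cs z = m) (hrm : ¬ r ∣ m)
    {q : ℕ} (hq : q.Prime) {a : G} (ha : PE q a) (hca : cs a = n) (hqn : ¬ q ∣ n) :
    ∀ t ∈ C a, PE r t → t ∈ center G := by
  intro t hta ht
  by_contra hnc
  have hm1 := S.hm
  have hzc : z ∉ center G := fun h => by
    have := cs_eq_one_iff.2 h
    omega
  have hrn : r ∣ n := (S.dvd_of_noncentral hr hz hzc).resolve_right hrm
  have hrq : r ≠ q := by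
    rintro rfl
    exact hqn hrn
  rcases S.h t with e | e | e | e
  · exact hnc (cs_eq_one_iff.1 e)
  · exact hT1 r t hr ht e hrn
  · exact hNM q r a t hq hr ha hca hqn ht e hrm (mem_C.1 hta).symm
  · have h1 : C t ≤ C a := S.C_le_of_big e (mem_C.1 hta) (ht.coprime_orderOf hr hq hrq ha)
    obtain ⟨g, hg⟩ := exists_conj_mem (X := C z) hr ht (by rw [show (C z).index = m from hcz]; exact hrm)
    have hgz : (g * t * g⁻¹) * z = z * (g * t * g⁻¹) := mem_C.1 hg
    have hz't : g⁻¹ * z * g⁻¹⁻¹ ∈ C t := by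
      apply mem_C.2
      calc g⁻¹ * z * g⁻¹⁻¹ * t = g⁻¹ * (z * (g * t * g⁻¹)) * g := by group
        _ = g⁻¹ * ((g * t * g⁻¹) * z) * g := by rw [hgz]
        _ = _ := by group
    have hz'a := h1 hz't
    exact hNM q r a _ hq hr ha hca hqn (hz.conj g⁻¹) (by rw [cs_conj]; exact hcz) hrm (mem_C.1 hz'a).symm

theorem exists_not_dvd_noncentral (S : Sz G n m) (hgt : m < n)
    (hT1 : ∀ (p : ℕ) (x : G), p.Prime → PE p x → cs x = n → ¬ p ∣ n)
    (hT3 : ∀ (p : ℕ) (x : G), p.Prime → PE p x → cs x = m → ¬ p ∣ m)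
    (hNM : ∀ (q r : ℕ) (a z : G), q.Prime → r.Prime → PE q a → cs a = n → ¬ q ∣ n → PE r z →
      cs z = m → ¬ r ∣ m → a * z ≠ z * a)
    {q₀ r₀ : ℕ} (hq₀ : q₀.Prime) (hr₀ : r₀.Prime) {a z : G} (ha : PE q₀ a) (hca : cs a = n)
    (hqn : ¬ q₀ ∣ n) (hz : PE r₀ z) (hcz : cs z = m) (hrm : ¬ r₀ ∣ m)
    {s : ℕ} (hs : s.Prime) (hsd : s ∣ n ∨ s ∣ m) :
    ∃ u, PE s u ∧ u ∉ center G ∧ ¬ s ∣ cs u := by
  classical
  by_contra hno
  push Not at hno
  have hm1 := S.hm
  have hn1 := S.hn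
  haveI : Fact s.Prime := ⟨hs⟩
  have hbig : ∀ u, PE s u → u ∉ center G → cs u = n * m := by
    intro u hu hc
    rcases S.h u with e | e | e | e
    · exact absurd (cs_eq_one_iff.1 e) hc
    · have h := hno u hu hc
      rw [e] at h
      exact absurd h (hT1 s u hs hu e)
    · have h := hno u hu hc
      rw [e] at h
      exact absurd h (hT3 s u hs hu e)
    · exact e
  obtain ⟨S₀⟩ : Nonempty (Sylow s G) := inferInstance
  have hcenC : ∀ w : G, center G ≤ C w := center_le_C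
  have hnotc : ¬ (S₀ : Subgroup G) ≤ center G := by
    intro h
    obtain ⟨g, hg⟩ := S.exnm
    have h1 : (S₀ : Subgroup G) ≤ C g := h.trans (hcenC g)
    apply S₀.not_dvd_index
    have h2 : s ∣ cs g := by
      rw [hg]
      rcases hsd with h3 | h3
      · exact h3.mul_right m
      · exact h3.mul_left n
    exact h2.trans (Subgroup.index_dvd_of_le h1)
  obtain ⟨u₀, hu₀, hu₀c, hup⟩ := exists_upper hs S₀.2 hnotc
  have hu₀PE : PE s u₀ := PE.of_mem_isPGroup S₀.2 hu₀
  obtain ⟨b, hb, hub⟩ : ∃ b ∈ (S₀ : Subgroup G), u₀ * b ≠ b * u₀ := by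
    by_contra hall
    push Not at hall
    have h1 : (S₀ : Subgroup G) ≤ C u₀ := fun w hw => mem_C.2 (hall w hw).symm
    exact S₀.not_dvd_index ((hno u₀ hu₀PE hu₀c).trans (Subgroup.index_dvd_of_le h1))
  have hne := hNM q₀ r₀ a z hq₀ hr₀ ha hca hqn hz hcz hrm
  obtain ⟨K, hKn, hKne, hK1, hKt, hKab, hKcard, hKconj, hKpow⟩ := lemmaN S hgt hca hcz hne
  obtain ⟨j, hj⟩ := hz
  have hzPE : PE r₀ z := ⟨j, hj⟩
  have hzc : z ∉ center G := fun h => by
    have := cs_eq_one_iff.2 h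
    omega
  have hr₀s : r₀ ≠ s := by
    rintro rfl
    have h := hno z hzPE hzc
    rw [hcz] at h
    exact hrm h
  have hKZ : ∀ k ∈ K, k ∈ center G → k = 1 := by
    intro k hk hkc
    exact fixK hq₀ hKcard hqn hKconj ha hk (comm_of_center hkc a)
  have hfpf₀ : ∀ w, PE s w → w ∉ center G → ∀ k ∈ K, w * k = k * w → k = 1 := by
    intro w hw hwc k hk hc
    have hcw := hbig w hw hwc
    have hkPE : PE r₀ k := ⟨j, hKpow _ hj k hk⟩
    apply hKZ k hk
    refine tight hr₀ (H := C a) (L := C w) ?_ (hcenC w) (tightR S hT1 hNM hr₀ hzPE hcz hrm hq₀ ha hca hqn)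
      (mem_C.2 hc.symm) hkPE
    show cs a ∣ cs w
    rw [hca, hcw]
    exact Dvd.intro m rfl
  let V : Subgroup G := closure ({u₀, b} : Set G)
  have hVS : V ≤ (S₀ : Subgroup G) := by
    rw [closure_le]
    rintro x (rfl | rfl)
    · exact hu₀
    · exact hb
  have hu₀V : u₀ ∈ V := subset_closure (Set.mem_insert _ _)
  have hbV : b ∈ V := subset_closure (Set.mem_insert_of_mem _ rfl)
  haveI hKcomm : IsMulCommutative K := ⟨⟨fun x y => Subtype.ext (hKab _ x.2 _ y.2)⟩⟩
  letI : CommGroup K := { (inferInstance : Group K) with mul_comm := fun x y => Subtype.ext (hKab _ x.2 _ y.2) }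
  let f₀ : G →* MulAut K := MulAut.conjNormal
  have hf₀ : ∀ (x : G) (w : K), ((f₀ x w : K) : G) = x * w * x⁻¹ := fun x w => MulAut.conjNormal_apply x w
  have hf₀c : ∀ x ∈ center G, f₀ x = 1 := by
    intro x hx
    apply MulEquiv.ext
    intro w
    apply Subtype.ext
    rw [hf₀]
    show x * (w : G) * x⁻¹ = (w : G)
    rw [← comm_of_center hx (w : G)]
    group
  have hcom0 : f₀ u₀ * f₀ b = f₀ b * f₀ u₀ := by
    have h1 := hup b hb
    have h2 := hf₀c _ h1
    rw [map_mul, map_mul, map_mul, map_inv, map_inv] at h2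
    calc f₀ u₀ * f₀ b = (f₀ u₀ * f₀ b * (f₀ u₀)⁻¹ * (f₀ b)⁻¹) * (f₀ b * f₀ u₀) := by group
      _ = f₀ b * f₀ u₀ := by rw [h2, one_mul]
  have hstep1 : ∀ x ∈ V, (f₀ x * f₀ u₀ = f₀ u₀ * f₀ x) ∧ (f₀ x * f₀ b = f₀ b * f₀ x) := by
    have h1 : V ≤ (centralizer ({f₀ u₀, f₀ b} : Set (MulAut K))).comap f₀ := by
      rw [closure_le]
      rintro x (rfl | rfl)
      · rw [SetLike.mem_coe, mem_comap, mem_centralizer_iff]
        rintro y (rfl | rfl)
        · rfl
        · exact hcom0.symm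
      · rw [SetLike.mem_coe, mem_comap, mem_centralizer_iff]
        rintro y (rfl | rfl)
        · exact hcom0
        · rfl
    intro x hx
    have h2 := mem_centralizer_iff.1 (mem_comap.1 (h1 hx))
    exact ⟨(h2 _ (Set.mem_insert _ _)).symm, (h2 _ (Set.mem_insert_of_mem _ rfl)).symm⟩
  have hstep2 : ∀ x ∈ V, ∀ y ∈ V, f₀ x * f₀ y = f₀ y * f₀ x := by
    intro x hx
    have h1 : V ≤ (centralizer ({f₀ x} : Set (MulAut K))).comap f₀ := by
      rw [closure_le]
      rintro y (rfl | rfl)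
      · rw [SetLike.mem_coe, mem_comap, mem_centralizer_iff]
        rintro w rfl
        exact (hstep1 x hx).1
      · rw [SetLike.mem_coe, mem_comap, mem_centralizer_iff]
        rintro w rfl
        exact (hstep1 x hx).2
    intro y hy
    have h2 := mem_centralizer_iff.1 (mem_comap.1 (h1 hy))
    exact h2 _ rfl
  have hVPE : ∀ x ∈ V, PE s x := fun x hx => PE.of_mem_isPGroup S₀.2 (hVS hx)
  have hfixw : ∀ (x : G) (w : K), f₀ x w = w → x * (w : G) = (w : G) * x := by
    intro x w h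
    have h1 := congrArg Subtype.val h
    rw [hf₀] at h1
    calc x * (w : G) = (x * (w : G) * x⁻¹) * x := by group
      _ = (w : G) * x := by rw [h1]
  have hmain := comm_of_fpf_action (V := V) (W := K) (f₀.comp V.subtype)
    (fun x y => hstep2 _ x.2 _ y.2)
    (fun x hx w hw => by
      have hxc : (x : G) ∉ center G := fun h => hx (hf₀c _ h)
      have h1 := hfpf₀ _ (hVPE _ x.2) hxc _ w.2 (hfixw _ w hw)
      exact Subtype.ext h1)
    (fun x hx => by
      have hxc : (x : G) ∈ center G := by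
        by_contra hxc
        obtain ⟨k, hk, hk1⟩ := (Subgroup.bot_or_exists_ne_one K).resolve_left hKne
        have h2 : f₀ (x : G) ⟨k, hk⟩ = ⟨k, hk⟩ := by
          have h3 : f₀ (x : G) = 1 := hx
          rw [h3]
          rfl
        exact hk1 (hfpf₀ _ (hVPE _ x.2) hxc k hk (hfixw _ _ h2))
      rw [mem_center_iff]
      intro y
      apply Subtype.ext
      exact comm_of_center hxc (y : G))
    (fun p hp hpd w hw => by
      have hVp : IsPGroup s V := S₀.2.to_le hVS
      obtain ⟨i, hi⟩ := IsPGroup.iff_card.1 hVp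
      rw [hi] at hpd
      have hps : p = s := (Nat.prime_dvd_prime_iff_eq hp hs).1 (hp.dvd_of_dvd_pow hpd)
      subst hps
      have h1 : PE p (w : G) := ⟨1, by
        rw [pow_one]
        exact congrArg Subtype.val hw⟩
      have h2 : PE r₀ (w : G) := ⟨j, hKpow _ hj _ w.2⟩
      exact Subtype.ext (h1.eq_one_of_coprime hp hr₀ hr₀s.symm h2))
    ⟨u₀, hu₀V⟩ ⟨b, hbV⟩
  exact hub (congrArg Subtype.val hmain)

theorem exists_primary_of_class {N : ℕ} (hN : N ≠ 1) (S : Sz G n m) (hdiv : ∀ x : G, cs x ∣ N → cs x = 1 ∨ cs x = N)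
    {g : G} (hg : cs g = N) : ∃ (s : ℕ) (y : G), s.Prime ∧ PE s y ∧ cs y = N := by
  have hgc : g ∉ center G := fun h => hN (hg ▸ cs_eq_one_iff.2 h)
  obtain ⟨s, w, hs, hwg, hw, hwc⟩ := exists_primary_not_mem' _ hgc
  refine ⟨s, w, hs, hw, ?_⟩
  have h1 : cs w ∣ N := hg ▸ cs_dvd_of_le (C_le_C_of_mem_zpowers hwg)
  exact (hdiv w h1).resolve_left (fun h => hwc (cs_eq_one_iff.1 h))

theorem case_beta (S : Sz G n m) (hgt : m < n)
    (hT1 : ∀ (p : ℕ) (x : G), p.Prime → PE p x → cs x = n → ¬ p ∣ n)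
    (hT3 : ∀ (p : ℕ) (x : G), p.Prime → PE p x → cs x = m → ¬ p ∣ m) : False := by
  have hm1 := S.hm
  have hn1 := S.hn
  obtain ⟨g₁, hg₁⟩ := S.exn
  obtain ⟨g₂, hg₂⟩ := S.exm
  obtain ⟨q, a, hq, ha, hca⟩ := exists_primary_of_class (by omega) S (fun x h => S.of_dvd_n h) hg₁
  obtain ⟨r, z, hr, hz, hcz⟩ := exists_primary_of_class (by omega) S (fun x h => S.symm.of_dvd_n h) hg₂
  have hqn := hT1 q a hq ha hca
  have hrm := hT3 r z hr hz hcz
  have hNM : ∀ (q r : ℕ) (a z : G), q.Prime → r.Prime → PE q a → cs a = n → ¬ q ∣ n → PE r z →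
      cs z = m → ¬ r ∣ m → a * z ≠ z * a := fun q r a z hq hr ha hca hqn hz hcz hrm h =>
    mixed S hgt hT1 hq hr ha hca hqn hz hcz hrm h
  have hNM' : ∀ (q r : ℕ) (a z : G), q.Prime → r.Prime → PE q a → cs a = m → ¬ q ∣ m → PE r z →
      cs z = n → ¬ r ∣ n → a * z ≠ z * a := fun q r a z hq hr ha hca hqn hz hcz hrm h =>
    hNM r q z a hr hq hz hcz hrm ha hca hqn h.symm
  obtain ⟨g, hg⟩ := S.exnm
  have hgc : g ∉ center G := fun h => by
    have h1 := cs_eq_one_iff.2 h
    rw [hg] at h1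
    have : 1 < n * m := by nlinarith
    omega
  obtain ⟨s, w, hs, hwg, hw, hwc⟩ := exists_primary_not_mem' _ hgc
  have hwC : w ∈ C g := comm_mem_C (C_le_C_of_mem_zpowers hwg (self_mem_C g))
  obtain ⟨u, huPE, huc, hu⟩ := exists_not_dvd_noncentral S hgt hT1 hT3 hNM hq hr ha hca hqn hz hcz hrm hs
    (S.dvd_of_noncentral hs hw hwc)
  rcases S.dvd_of_noncentral hs hw hwc with hsn | hsm
  · have hcu : cs u = m := by
      rcases S.h u with e | e | e | e
      · exact absurd (cs_eq_one_iff.1 e) huc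
      · rw [e] at hu
        exact absurd hsn hu
      · exact e
      · rw [e] at hu
        exact absurd (hsn.mul_right m) hu
    have hsm' : ¬ s ∣ m := fun h => by
      have := Nat.eq_one_of_dvd_coprimes S.hcop hsn h
      exact hs.one_lt.ne' this
    refine hwc (tight hs (H := C a) (L := C g) ?_ (center_le_C g)
      (tightR S hT1 hNM hs huPE hcu hsm' hq ha hca hqn) hwC hw)
    show cs a ∣ cs g
    rw [hca, hg]
    exact Dvd.intro m rfl
  · have hcu : cs u = n := by
      rcases S.h u with e | e | e | e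
      · exact absurd (cs_eq_one_iff.1 e) huc
      · exact e
      · rw [e] at hu
        exact absurd hsm hu
      · rw [e] at hu
        exact absurd (hsm.mul_left n) hu
    have hsn' : ¬ s ∣ n := fun h => by
      have := Nat.eq_one_of_dvd_coprimes S.hcop h hsm
      exact hs.one_lt.ne' this
    refine hwc (tight hs (H := C z) (L := C g) ?_ (center_le_C g)
      (tightR S.symm hT3 hNM' hs huPE hcu hsn' hr hz hcz hrm) hwC hw)
    show cs z ∣ cs g
    rw [hcz, hg]
    exact Dvd.intro_left n rfl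

end Cfsg.Agent.Lib.FourSizes
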