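import Mathlib
import Cfsg.Agent.Lib.FourSizes.Beta
import Cfsg.Agent.Lib.ClassSizes.Kazarin

/-! The configuration in which both `n` and `m` are reached by elements of orders dividing them. -/

set_option autoImplicit false
set_option linter.style.haveILetI false

namespace Cfsg.Agent.Lib.FourSizes

open Subgroup Cfsg.Agent.Lib.PGroup.Ito Cfsg.Agent.Lib.ClassSizes.CMN Cfsg.Agent.Lib.Core

variable {G : Type*} [Group G] [Finite G] {n m : ℕ}

theorem no_T2 (S : Sz G n m) {q : ℕ} (hq : q.Prime) {y : G} (hy : PE q y) (hcy : cs y = m)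
    (hqm : q ∣ m) {s : ℕ} (hs : s.Prime) {a : G} (ha : PE s a) (hca : cs a = n) (hsn : ¬ s ∣ n) :
    False := by
  have hn1 := S.hn
  have hqn : ¬ q ∣ n := fun h => hq.one_lt.ne' (Nat.eq_one_of_dvd_coprimes S.hcop h hqm)
  have hay : y * a = a * y := comm_of_PE_not_dvd hq hy (by rw [hca]; exact hqn)
    (by rw [hcy, hca]; exact S.hcop.symm)
  obtain ⟨hcc, -⟩ := pack S hq hy hcy hqn
  obtain ⟨p, hp, hpn⟩ := Nat.exists_prime_and_dvd (show n ≠ 1 by omega)
  haveI : Fact p.Prime := ⟨hp⟩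
  have hpm : ¬ p ∣ m := fun h => hp.one_lt.ne' (Nat.eq_one_of_dvd_coprimes S.hcop hpn h)
  obtain ⟨P, hP⟩ : ∃ P : Sylow p G, (P : Subgroup G) ≤ C y :=
    Cfsg.Agent.Lib.PSolv.exists_sylow_le_of_not_dvd_index (by rw [show (C y).index = m from hcy]; exact hpm)
  have hps : p ≠ s := by
    rintro rfl
    exact hsn hpn
  have h1 : (P : Subgroup G) ≤ C a := by
    intro u hu
    exact mem_C.2 (hcc p s hp hs hps u (hP hu) a (mem_C.2 hay.symm) (PE.of_mem_isPGroup P.2 hu) ha)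
  have h2 : p ∣ cs a := by
    rw [hca]
    exact hpn
  exact P.not_dvd_index (h2.trans (Subgroup.index_dvd_of_le h1))

theorem normal_of_sylin {K P : Subgroup G}
    (h : ∀ r : ℕ, r.Prime → ∃ S : Subgroup G, @SylIn G _ r S K ∧ ∀ u ∈ S, ∀ v ∈ P, u * v * u⁻¹ ∈ P) :
    ∀ k ∈ K, ∀ v ∈ P, k * v * k⁻¹ ∈ P := by
  let L : Subgroup G := normalizer (P : Set G) ⊓ K
  have hLK : L ≤ K := inf_le_right
  have hrel : L.relIndex K = 1 := by
    by_contra hne
    obtain ⟨r, hr, hd⟩ := Nat.exists_prime_and_dvd hne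
    obtain ⟨S, hS, hSn⟩ := h r hr
    have hSL : S ≤ L := by
      intro u hu
      refine ⟨?_, hS.1 hu⟩
      show u ∈ normalizer (P : Set G)
      rw [mem_normalizer_iff]
      intro v
      constructor
      · exact hSn u hu v
      · intro hv
        have h1 := hSn u⁻¹ (S.inv_mem hu) _ hv
        have e : u⁻¹ * (u * v * u⁻¹) * u⁻¹⁻¹ = v := by group
        rwa [e] at h1
    apply hS.2.2
    rw [← Subgroup.relIndex_mul_relIndex S L K hSL hLK]
    exact hd.mul_left _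
  have hKL := relIndex_eq_one.1 hrel
  intro k hk v hv
  exact (mem_normalizer_iff.1 (hKL hk).1 v).1 hv

theorem mem_of_normal_sylIn {p : ℕ} (hp : p.Prime) {K P : Subgroup G} (hP : @SylIn G _ p P K)
    (hn : ∀ k ∈ K, ∀ v ∈ P, k * v * k⁻¹ ∈ P) {w : G} (hw : w ∈ K) (hwe : PE p w) : w ∈ P := by
  haveI : Fact p.Prime := ⟨hp⟩
  obtain ⟨S', hS', hWS'⟩ := exists_sylIn_ge (hwe.isPGroup_zpowers hp) (zpowers_le.2 hw)
  have h1 : P ≤ S' := hS'.normal_le hP.1 hP.2.1 hn
  have h2 : P = S' := Subgroup.eq_of_le_of_card_ge h1 (hS'.card.trans hP.card.symm).le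
  rw [h2]
  exact hWS' (mem_zpowers w)

theorem normal_of_cc {K P : Subgroup G} {p : ℕ} (hp : p.Prime) (hP : @SylIn G _ p P K)
    (hcc : ∀ r : ℕ, r.Prime → r ≠ p → ∀ u ∈ K, PE r u → ∀ v ∈ P, u * v = v * u) :
    ∀ k ∈ K, ∀ v ∈ P, k * v * k⁻¹ ∈ P := by
  apply normal_of_sylin
  intro r hr
  by_cases hrp : r = p
  · subst hrp
    exact ⟨P, hP, fun u hu v hv => P.mul_mem (P.mul_mem hu hv) (P.inv_mem hu)⟩
  · haveI : Fact r.Prime := ⟨hr⟩
    obtain ⟨S, hS⟩ := exists_sylIn (p := r) K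
    refine ⟨S, hS, fun u hu v hv => ?_⟩
    have h1 := hcc r hr hrp u (hS.1 hu) (PE.of_mem_isPGroup hS.2.1 hu) v hv
    rw [h1]
    simpa using hv

theorem exists_normalizing {p : ℕ} [Fact p.Prime] {P A : Subgroup G} (hP : IsPGroup p P)
    (hAP : A ≤ P) (hne : ¬ P ≤ A) :
    ∃ g ∈ P, g ∉ A ∧ (∀ a ∈ A, g * a * g⁻¹ ∈ A) ∧ (∀ a ∈ A, g⁻¹ * a * g ∈ A) := by
  haveI : Group.IsNilpotent P := hP.isNilpotent
  let H : Subgroup P := A.subgroupOf P
  have hlt : H < ⊤ := by
    rw [lt_top_iff_ne_top]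
    intro h
    apply hne
    intro x hx
    have h1 : (⟨x, hx⟩ : P) ∈ H := by
      rw [h]
      trivial
    exact h1
  have h2 := Group.normalizerCondition_of_isNilpotent H hlt
  obtain ⟨g, hg, hgH⟩ := SetLike.exists_of_lt h2
  refine ⟨g, g.2, hgH, ?_, ?_⟩
  · intro a ha
    have h3 : (⟨a, hAP ha⟩ : P) ∈ H := ha
    exact (mem_normalizer_iff.1 hg _).1 h3
  · intro a ha
    have h3 : (⟨a, hAP ha⟩ : P) ∈ H := ha
    have h4 := (mem_normalizer_iff.1 (inv_mem hg) _).1 h3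
    have h5 : (g : G)⁻¹ * a * (g : G) ∈ A := by
      have h6 : (g⁻¹ * ⟨a, hAP ha⟩ * g⁻¹⁻¹ : P) ∈ H := h4
      rw [inv_inv] at h6
      exact h6
    exact h5

theorem sylIn_top {r : ℕ} [Fact r.Prime] (R : Sylow r G) : @SylIn G _ r (R : Subgroup G) ⊤ :=
  ⟨le_top, R.2, by rw [relIndex_top_right]; exact R.not_dvd_index⟩

theorem case_alpha (S : Sz G n m) {p q : ℕ} (hp : p.Prime) (hq : q.Prime) {x y : G}
    (hx : PE p x) (hcx : cs x = n) (hpn : p ∣ n) (hy : PE q y) (hcy : cs y = m) (hqm : q ∣ m) :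
    Group.IsNilpotent G ∧ IsPrimePow n ∧ IsPrimePow m := by
  haveI : Fact p.Prime := ⟨hp⟩
  haveI : Fact q.Prime := ⟨hq⟩
  have hn1 := S.hn
  have hm1 := S.hm
  have hqn : ¬ q ∣ n := fun h => hq.one_lt.ne' (Nat.eq_one_of_dvd_coprimes S.hcop h hqm)
  have hpm : ¬ p ∣ m := fun h => hp.one_lt.ne' (Nat.eq_one_of_dvd_coprimes S.hcop hpn h)
  have hpq : p ≠ q := by
    rintro rfl
    exact hqn hpn
  have hxy : x * y = y * x := (comm_of_PE_not_dvd hq hy (by rw [hcx]; exact hqn)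
    (by rw [hcy, hcx]; exact S.hcop.symm)).symm
  obtain ⟨ccE, powE⟩ := pack S hq hy hcy hqn
  obtain ⟨ccF, powF⟩ := pack S.symm hp hx hcx hpm
  have hco : (cs x).Coprime (cs y) := by
    rw [hcx, hcy]
    exact S.hcop
  have hinf : (C x ⊓ C y).index = n * m := by
    rw [index_inf_of_coprime _ _ hco]
    show cs x * cs y = _
    rw [hcx, hcy]
  have hrelE : (C x).relIndex (C y) = n := by
    have h2 : (C x ⊓ C y).relIndex (C y) * (C y).index = (C x ⊓ C y).index :=
      relIndex_mul_index inf_le_right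
    rw [inf_relIndex_right, hinf, show (C y).index = m from hcy] at h2
    exact Nat.eq_of_mul_eq_mul_right (by omega) h2
  have hrelF : (C y).relIndex (C x) = m := by
    have h2 : (C y ⊓ C x).relIndex (C x) * (C x).index = (C y ⊓ C x).index :=
      relIndex_mul_index inf_le_right
    rw [inf_relIndex_right, inf_comm, hinf, show (C x).index = n from hcx] at h2
    rw [mul_comm n m] at h2
    exact Nat.eq_of_mul_eq_mul_right (by omega) h2
  have hnpp : IsPrimePow n := powE x (mem_C.2 hxy) (hx.coprime hp hq hpq) hrelE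
  have hmpp : IsPrimePow m := powF y (mem_C.2 hxy.symm) (hy.coprime hq hp hpq.symm) hrelF
  have hpow : ∀ {N l : ℕ}, l.Prime → IsPrimePow N → l ∣ N → ∃ a, N = l ^ a := by
    intro N l hl hN hd
    obtain ⟨r, k, hr, hk, rfl⟩ := hN
    have hr' : r.Prime := Nat.prime_iff.2 hr
    have h1 : l = r := (Nat.prime_dvd_prime_iff_eq hl hr').1 (hl.dvd_of_dvd_pow hd)
    exact ⟨k, by rw [h1]⟩
  obtain ⟨a, han⟩ := hpow hp hnpp hpn
  obtain ⟨b, hbm⟩ := hpow hq hmpp hqm
  obtain ⟨P, hPE⟩ : ∃ P : Sylow p G, (P : Subgroup G) ≤ C y :=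
    Cfsg.Agent.Lib.PSolv.exists_sylow_le_of_not_dvd_index (by rw [show (C y).index = m from hcy]; exact hpm)
  obtain ⟨Q, hQF⟩ : ∃ Q : Sylow q G, (Q : Subgroup G) ≤ C x :=
    Cfsg.Agent.Lib.PSolv.exists_sylow_le_of_not_dvd_index (by rw [show (C x).index = n from hcx]; exact hqn)
  have hPsyl : SylIn p (P : Subgroup G) (C y) := ⟨hPE, P.2, fun h => P.not_dvd_index (by
    rw [← Subgroup.relIndex_mul_index hPE]
    exact h.mul_right _)⟩
  have hQsyl : SylIn q (Q : Subgroup G) (C x) := ⟨hQF, Q.2, fun h => Q.not_dvd_index (by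
    rw [← Subgroup.relIndex_mul_index hQF]
    exact h.mul_right _)⟩
  have hPn := normal_of_cc hp hPsyl (fun r hr hrp u hu hue v hv =>
    ccE r p hr hp hrp u hu v (hPE hv) hue (PE.of_mem_isPGroup P.2 hv))
  have hQn := normal_of_cc hq hQsyl (fun r hr hrp u hu hue v hv =>
    ccF r q hr hq hrp u hu v (hQF hv) hue (PE.of_mem_isPGroup Q.2 hv))
  have hallP : ∀ w ∈ C y, PE p w → w ∈ (P : Subgroup G) := fun w hw hwe =>
    mem_of_normal_sylIn hp hPsyl hPn hw hwe
  have hallQ : ∀ w ∈ C x, PE q w → w ∈ (Q : Subgroup G) := fun w hw hwe =>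
    mem_of_normal_sylIn hq hQsyl hQn hw hwe
  have hxP : x ∈ (P : Subgroup G) := hallP x (mem_C.2 hxy) hx
  have hyQ : y ∈ (Q : Subgroup G) := hallQ y (mem_C.2 hxy.symm) hy
  have hPQ1 : ∀ w, w ∈ (P : Subgroup G) → w ∈ (Q : Subgroup G) → w = 1 := fun w h1 h2 =>
    PE.eq_one_of_coprime hp hq hpq (PE.of_mem_isPGroup P.2 h1) (PE.of_mem_isPGroup Q.2 h2)
  have hyP : ∀ v ∈ (P : Subgroup G), v * y = y * v := fun v hv => mem_C.1 (hPE hv)
  have hxQ : ∀ u ∈ (Q : Subgroup G), u * x = x * u := fun u hu => mem_C.1 (hQF hu)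
  have key : ∀ v ∈ (P : Subgroup G), ∀ u ∈ (Q : Subgroup G), v * u = u * v := by
    let A : Subgroup G := (P : Subgroup G) ⊓ centralizer ((Q : Subgroup G) : Set G)
    have hAP : A ≤ (P : Subgroup G) := inf_le_left
    suffices hsuff : (P : Subgroup G) ≤ A by
      intro v hv u hu
      exact (mem_centralizer_iff.1 (hsuff hv).2 u hu).symm
    by_contra hne
    obtain ⟨g, hgP, hgA, hg1, hg2⟩ := exists_normalizing P.2 hAP hne
    have hxA : x ∈ A := ⟨hxP, mem_centralizer_iff.2 hxQ⟩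
    have hgQ : ∀ u ∈ (Q : Subgroup G), g * u * g⁻¹ ∈ (Q : Subgroup G) := by
      intro u hu
      refine hallQ _ ?_ ((PE.of_mem_isPGroup Q.2 hu).conj g)
      have h1 := hg2 x hxA
      have h2 : u * (g⁻¹ * x * g) = (g⁻¹ * x * g) * u := mem_centralizer_iff.1 h1.2 u hu
      apply mem_C.2
      calc g * u * g⁻¹ * x = g * (u * (g⁻¹ * x * g)) * g⁻¹ := by group
        _ = g * ((g⁻¹ * x * g) * u) * g⁻¹ := by rw [h2]
        _ = x * (g * u * g⁻¹) := by group
    obtain ⟨u₀, hu₀, hgu₀⟩ : ∃ u₀ ∈ (Q : Subgroup G), u₀ * g ≠ g * u₀ := by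
      by_contra hall
      push Not at hall
      exact hgA ⟨hgP, mem_centralizer_iff.2 hall⟩
    have hgPE : PE p g := PE.of_mem_isPGroup P.2 hgP
    have hcg : cs g = n * m := by
      rcases S.h g with e | e | e | e
      · exact absurd (comm_of_center (cs_eq_one_iff.1 e) u₀) hgu₀
      · exfalso
        apply hgu₀
        have hga : (C g).index = p ^ a := by
          show cs g = _
          rw [e, han]
        obtain ⟨c, hc, v, hv, hcv⟩ :=
          Cfsg.Agent.Lib.ClassSizes.exists_centralizer_mul_sylow hga P u₀⁻¹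
        have hc' : c * g = g * c := mem_C.1 hc
        have h1 : u₀ * g * u₀⁻¹ = v⁻¹ * g * v := by
          have e1 : u₀ * g * u₀⁻¹ = (u₀⁻¹)⁻¹ * g * u₀⁻¹ := by group
          rw [e1, hcv]
          calc (c * v)⁻¹ * g * (c * v) = v⁻¹ * (c⁻¹ * (g * c)) * v := by group
            _ = v⁻¹ * (c⁻¹ * (c * g)) * v := by rw [hc']
            _ = _ := by group
        have h2 : u₀ * g * u₀⁻¹ ∈ (P : Subgroup G) := by
          rw [h1]
          exact P.1.mul_mem (P.1.mul_mem (P.1.inv_mem hv) hgP) hv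
        have h3 : u₀ * g * u₀⁻¹ * g⁻¹ ∈ (P : Subgroup G) := P.1.mul_mem h2 (P.1.inv_mem hgP)
        have h4 : u₀ * g * u₀⁻¹ * g⁻¹ ∈ (Q : Subgroup G) := by
          have e2 : u₀ * g * u₀⁻¹ * g⁻¹ = u₀ * (g * u₀⁻¹ * g⁻¹) := by group
          rw [e2]
          exact Q.1.mul_mem hu₀ (hgQ _ (Q.1.inv_mem hu₀))
        have h5 := hPQ1 _ h3 h4
        calc u₀ * g = (u₀ * g * u₀⁻¹ * g⁻¹) * (g * u₀) := by group
          _ = g * u₀ := by rw [h5, one_mul]
      · exact (no_T2 S.symm hp hx hcx hpn hp hgPE e hpm).elim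
      · exact e
    have hgy : g * y = y * g := hyP g hgP
    have hCgy : C g ≤ C y := S.C_le_of_big hcg hgy (hgPE.coprime_orderOf hp hq hpq hy)
    let B : Subgroup G := (Q : Subgroup G) ⊓ centralizer ((P : Subgroup G) : Set G)
    have hBQ : B ≤ (Q : Subgroup G) := inf_le_left
    have hQB : (Q : Subgroup G) ≤ B := by
      by_contra hne2
      obtain ⟨h, hhQ, hhB, hh1, hh2⟩ := exists_normalizing Q.2 hBQ hne2
      have hyB : y ∈ B := ⟨hyQ, mem_centralizer_iff.2 hyP⟩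
      have hhP : ∀ v ∈ (P : Subgroup G), h * v * h⁻¹ ∈ (P : Subgroup G) := by
        intro v hv
        refine hallP _ ?_ ((PE.of_mem_isPGroup P.2 hv).conj h)
        have h1 := hh2 y hyB
        have h2 : v * (h⁻¹ * y * h) = (h⁻¹ * y * h) * v := mem_centralizer_iff.1 h1.2 v hv
        apply mem_C.2
        calc h * v * h⁻¹ * y = h * (v * (h⁻¹ * y * h)) * h⁻¹ := by group
          _ = h * ((h⁻¹ * y * h) * v) * h⁻¹ := by rw [h2]
          _ = y * (h * v * h⁻¹) := by group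
      have hcomm : g * h * g⁻¹ * h⁻¹ = 1 := by
        apply hPQ1
        · have e2 : g * h * g⁻¹ * h⁻¹ = g * (h * g⁻¹ * h⁻¹) := by group
          rw [e2]
          exact P.1.mul_mem hgP (hhP _ (P.1.inv_mem hgP))
        · exact Q.1.mul_mem (hgQ h hhQ) (Q.1.inv_mem hhQ)
      have hgh : h ∈ C g := by
        apply mem_C.2
        calc h * g = (g * h * g⁻¹ * h⁻¹)⁻¹ * (g * h) := by group
          _ = g * h := by rw [hcomm, inv_one, one_mul]
      have hhy : h ∈ C y := hCgy hgh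
      apply hhB
      refine ⟨hhQ, mem_centralizer_iff.2 (fun v hv => ?_)⟩
      exact ccE p q hp hq hpq v (hPE hv) h hhy (PE.of_mem_isPGroup P.2 hv) (PE.of_mem_isPGroup Q.2 hhQ)
    apply hgu₀
    exact (mem_centralizer_iff.1 (hQB hu₀).2 g hgP).symm
  have hcentral : ∀ r : ℕ, r.Prime → r ≠ p → r ≠ q → ∀ t : G, PE r t → t ∈ center G := by
    intro r hr hrp hrq t ht
    refine center_of_forall_not_dvd hr (fun g hd => ?_) ht
    have hrn : ¬ r ∣ n := by
      rw [han]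
      intro h
      exact hrp ((Nat.prime_dvd_prime_iff_eq hr hp).1 (hr.dvd_of_dvd_pow h))
    have hrm : ¬ r ∣ m := by
      rw [hbm]
      intro h
      exact hrq ((Nat.prime_dvd_prime_iff_eq hr hq).1 (hr.dvd_of_dvd_pow h))
    rcases S.h g with e | e | e | e <;> rw [e] at hd
    · exact hr.one_lt.ne' (Nat.dvd_one.1 hd)
    · exact hrn hd
    · exact hrm hd
    · rcases (Nat.Prime.dvd_mul hr).1 hd with h | h
      · exact hrn h
      · exact hrm h
  have hPnG : (P : Subgroup G).Normal := by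
    have h := normal_of_sylin (K := ⊤) (P := (P : Subgroup G)) (fun r hr => by
      haveI : Fact r.Prime := ⟨hr⟩
      by_cases hrp : r = p
      · subst hrp
        exact ⟨P, sylIn_top P, fun u hu v hv => P.1.mul_mem (P.1.mul_mem hu hv) (P.1.inv_mem hu)⟩
      by_cases hrq : r = q
      · subst hrq
        refine ⟨Q, sylIn_top Q, fun u hu v hv => ?_⟩
        rw [← key v hv u hu]
        simpa using hv
      · obtain ⟨R⟩ : Nonempty (Sylow r G) := inferInstance
        refine ⟨R, sylIn_top R, fun u hu v hv => ?_⟩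
        have h1 := hcentral r hr hrp hrq u (PE.of_mem_isPGroup R.2 hu)
        rw [← comm_of_center h1 v]
        simpa using hv)
    exact ⟨fun v hv g => h g (mem_top g) v hv⟩
  have hQnG : (Q : Subgroup G).Normal := by
    have h := normal_of_sylin (K := ⊤) (P := (Q : Subgroup G)) (fun r hr => by
      haveI : Fact r.Prime := ⟨hr⟩
      by_cases hrq : r = q
      · subst hrq
        exact ⟨Q, sylIn_top Q, fun u hu v hv => Q.1.mul_mem (Q.1.mul_mem hu hv) (Q.1.inv_mem hu)⟩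
      by_cases hrp : r = p
      · subst hrp
        refine ⟨P, sylIn_top P, fun u hu v hv => ?_⟩
        rw [key u hu v hv]
        simpa using hv
      · obtain ⟨R⟩ : Nonempty (Sylow r G) := inferInstance
        refine ⟨R, sylIn_top R, fun u hu v hv => ?_⟩
        have h1 := hcentral r hr hrp hrq u (PE.of_mem_isPGroup R.2 hu)
        rw [← comm_of_center h1 v]
        simpa using hv)
    exact ⟨fun v hv g => h g (mem_top g) v hv⟩
  refine ⟨?_, hnpp, hmpp⟩
  refine ((Group.isNilpotent_of_finite_tfae (G := G)).out 0 3).2 ?_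
  intro r _ R
  by_cases hrp : r = p
  · subst hrp
    haveI := Sylow.unique_of_normal P hPnG
    rw [Subsingleton.elim R P]
    exact hPnG
  by_cases hrq : r = q
  · subst hrq
    haveI := Sylow.unique_of_normal Q hQnG
    rw [Subsingleton.elim R Q]
    exact hQnG
  · refine ⟨fun v hv g => ?_⟩
    have h1 := hcentral r Fact.out hrp hrq v (PE.of_mem_isPGroup R.2 hv)
    rw [comm_of_center h1 g]
    simpa using hv

theorem main_of_lt (S : Sz G n m) (hgt : m < n) :
    Group.IsNilpotent G ∧ IsPrimePow n ∧ IsPrimePow m := by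
  have hn1 := S.hn
  have hm1 := S.hm
  obtain ⟨g₁, hg₁⟩ := S.exn
  obtain ⟨g₂, hg₂⟩ := S.exm
  obtain ⟨s, a, hs, ha, hca⟩ := exists_primary_of_class (by omega) S (fun x h => S.of_dvd_n h) hg₁
  obtain ⟨q, y, hq, hy, hcy⟩ := exists_primary_of_class (by omega) S (fun x h => S.symm.of_dvd_n h) hg₂
  by_cases hT1 : ∃ (p : ℕ) (x : G), p.Prime ∧ PE p x ∧ cs x = n ∧ p ∣ n
  · obtain ⟨p, x, hp, hx, hcx, hpn⟩ := hT1
    by_cases hqm : q ∣ m
    · exact case_alpha S hp hq hx hcx hpn hy hcy hqm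
    · exact (no_T2 S.symm hp hx hcx hpn hq hy hcy hqm).elim
  · by_cases hT3 : ∃ (q : ℕ) (y : G), q.Prime ∧ PE q y ∧ cs y = m ∧ q ∣ m
    · obtain ⟨q', y', hq', hy', hcy', hqm'⟩ := hT3
      by_cases hsn : s ∣ n
      · exact (hT1 ⟨s, a, hs, ha, hca, hsn⟩).elim
      · exact (no_T2 S hq' hy' hcy' hqm' hs ha hca hsn).elim
    · exact (case_beta S hgt (fun p x hp hx hcx hd => hT1 ⟨p, x, hp, hx, hcx, hd⟩)
        (fun p x hp hx hcx hd => hT3 ⟨p, x, hp, hx, hcx, hd⟩)).elim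

theorem main (S : Sz G n m) : Group.IsNilpotent G ∧ IsPrimePow n ∧ IsPrimePow m := by
  have hn1 := S.hn
  have hm1 := S.hm
  have hne : n ≠ m := by
    rintro rfl
    have := S.hcop
    rw [Nat.coprime_self] at this
    omega
  rcases lt_or_gt_of_ne hne with h | h
  · obtain ⟨h1, h2, h3⟩ := main_of_lt S.symm h
    exact ⟨h1, h3, h2⟩
  · exact main_of_lt S h

end Cfsg.Agent.Lib.FourSizes
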